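import Cfsg.Agent.Lib.Helper4.CharSimple
import Cfsg.Agent.Lib.Helper35.Virt

/-!
# Brauer–Suzuki–Wall (abstract form): foundation

Definitions shared by all pieces of the proof of `S3282`.
-/

set_option autoImplicit false

namespace Cfsg.Agent.Lib.Helper46.BSW

open Cfsg Cfsg.Agent.Lib.Helper4
open scoped ComplexConjugate

universe u

variable {G : Type u} [Group G]

/-- The Brauer–Suzuki–Wall hypotheses on `(t, s, K)`. -/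
structure Setup (t s : G) (K : Subgroup G) : Prop where
  ht : orderOf t = 2
  hKab : ∀ a ∈ K, ∀ b ∈ K, a * b = b * a
  hKH : K ≤ Subgroup.centralizer ({t} : Set G)
  htK : t ∈ K
  hs : orderOf s = 2
  hsH : s ∈ Subgroup.centralizer ({t} : Set G)
  hsK : s ∉ K
  hH : K ⊔ Subgroup.zpowers s = Subgroup.centralizer ({t} : Set G)
  hCK : K ⊓ Subgroup.centralizer ({s} : Set G) = Subgroup.zpowers t
  hinv : ∀ x ∈ K, s * x * s⁻¹ = x⁻¹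
  hTI : ∀ g : G, g ∉ Subgroup.centralizer ({t} : Set G) →
    K ⊓ K.map (MulAut.conj g).toMonoidHom = ⊥
  hconj : ∀ x y : G, orderOf x = 2 → orderOf y = 2 → IsConj x y

/-- `g` is not conjugate into `K` (in particular `g ≠ 1`). -/
def Off (K : Subgroup G) (g : G) : Prop := ∀ y : G, y * g * y⁻¹ ∉ K

/-- The number of involutions inverting `z`. -/
noncomputable def invCount (z : G) : ℕ :=
  Nat.card {u : G // orderOf u = 2 ∧ u * z * u⁻¹ = z⁻¹}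

/-- The conclusion of the theorem. -/
def Concl (G : Type u) [Group G] : Prop :=
  ∃ Q D : Subgroup G, 2 * Nat.card G = Nat.card ↥Q * (Nat.card ↥Q + 1) * (Nat.card ↥Q - 1) ∧
      (∀ x ∈ Q, x ≠ 1 → Subgroup.centralizer ({x} : Set G) = Q) ∧
      IsMulCommutative ↥D ∧ 2 * Nat.card ↥D + 1 = Nat.card ↥Q ∧ Q ⊓ D = ⊥ ∧
      Subgroup.normalizer (Q : Set G) = Q ⊔ D ∧
      ∀ X : Subgroup G, X ≤ D → X ≠ ⊥ →
        Subgroup.normalizer (X : Set G) = Subgroup.normalizer (D : Set G) ∧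
        ∃ u : G, orderOf u = 2 ∧ u ∉ D ∧ (∀ d ∈ D, u * d * u⁻¹ = d⁻¹) ∧
          Subgroup.normalizer (D : Set G) = D ⊔ Subgroup.zpowers u

/-- The complex conjugate of an irreducible character. -/
noncomputable def cbar {X : Type u} [Group X] [Finite X] (l : IrrCharacter X) : IrrCharacter X :=
  ⟨Cfsg.conjFun (l : X → ℂ), by
    let _ : Fintype X := Fintype.ofFinite X
    exact Cfsg.Agent.Lib.Helper35.isIrr_conjFun l.2⟩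

theorem cbar_apply {X : Type u} [Group X] [Finite X] (l : IrrCharacter X) (x : X) :
    (cbar l : X → ℂ) x = conj ((l : X → ℂ) x) := rfl

open scoped Classical in
/-- The integer matrix `c l χ = (Ind_X^G (1_X - l), χ)` of the generalized characters induced
from an abelian subgroup `X` that is a T.I. set with `N(X) = X ∪ X w`, `w` inverting `X`. -/
structure IndData [Finite G] (X : Subgroup G) [Fintype (IrrCharacter X)]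
    [Fintype (IrrCharacter G)] (c : IrrCharacter X → IrrCharacter G → ℤ) : Prop where
  triv_row : ∀ χ, c trivIrr χ = 0
  triv_col : ∀ l, l ≠ trivIrr → c l trivIrr = 1
  gram : ∀ l l', l ≠ trivIrr → l' ≠ trivIrr →
    ∑ χ, c l χ * c l' χ = 2 + (if l' = l then 1 else 0) + (if l' = cbar l then 1 else 0)
  bar : ∀ l, c (cbar l) = c l
  vanish : ∀ l (g : G), (g = 1 ∨ ∀ y : G, y * g * y⁻¹ ∉ X) →
    ∑ χ, (c l χ : ℂ) * (χ : G → ℂ) g = 0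
  fourier : ∀ (χ : IrrCharacter G) (x : X), x ≠ 1 →
    (χ : G → ℂ) x = - ∑ l, (c l χ : ℂ) * (l : X → ℂ) x

open scoped Classical in
/-- The generic shape of the matrix `a` (rows indexed by `L`, columns by `I`). -/
structure Shape {I L : Type*} (a : L → I → ℤ) (one : I) (triv l₀ : L) (bar : L → L)
    (δ ε e₁ e₂ : ℤ) (Δ Z₁ Z₂ : I) (Θ : L → I) : Prop where
  hδ : δ = 1 ∨ δ = -1
  hε : ε = 1 ∨ ε = -1
  he₁ : e₁ = 1 ∨ e₁ = -1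
  he₂ : e₂ = 1 ∨ e₂ = -1
  hΔ : Δ ≠ one
  hZ₁ : Z₁ ≠ one ∧ Z₁ ≠ Δ
  hZ₂ : Z₂ ≠ one ∧ Z₂ ≠ Δ ∧ Z₂ ≠ Z₁
  hΘ : ∀ l, l ≠ triv → l ≠ l₀ → Θ l ≠ one ∧ Θ l ≠ Δ ∧ Θ l ≠ Z₁ ∧ Θ l ≠ Z₂
  hΘeq : ∀ l l', l ≠ triv → l ≠ l₀ → l' ≠ triv → l' ≠ l₀ →
    (Θ l = Θ l' ↔ (l' = l ∨ l' = bar l))
  row : ∀ l, l ≠ triv → l ≠ l₀ → ∀ i, a l i =
    (if i = one then 1 else 0) + δ * (if i = Δ then 1 else 0) - ε * (if i = Θ l then 1 else 0)
  row₀ : ∀ i, a l₀ i =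
    (if i = one then 1 else 0) + δ * (if i = Δ then 1 else 0) + e₁ * (if i = Z₁ then 1 else 0)
      + e₂ * (if i = Z₂ then 1 else 0)

open scoped Classical in
/-- The exceptional shape (possible only with exactly two pairs of non-real rows). -/
structure Exc {I L : Type*} (a : L → I → ℤ) (one : I) (triv l₀ : L) (bar : L → L)
    (l₁ l₂ : L) (Y W₁ W₂ W₃ : I) (b c₁ c₂ c₃ : ℤ) : Prop where
  hl₁ : l₁ ≠ triv ∧ l₁ ≠ l₀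
  hl₂ : l₂ ≠ triv ∧ l₂ ≠ l₀ ∧ l₂ ≠ l₁ ∧ l₂ ≠ bar l₁
  all : ∀ l, l = triv ∨ l = l₀ ∨ l = l₁ ∨ l = bar l₁ ∨ l = l₂ ∨ l = bar l₂
  hb : b = 1 ∨ b = -1
  hc₁ : c₁ = 1 ∨ c₁ = -1
  hc₂ : c₂ = 1 ∨ c₂ = -1
  hc₃ : c₃ = 1 ∨ c₃ = -1
  hY : Y ≠ one
  hW₁ : W₁ ≠ one ∧ W₁ ≠ Y
  hW₂ : W₂ ≠ one ∧ W₂ ≠ Y ∧ W₂ ≠ W₁
  hW₃ : W₃ ≠ one ∧ W₃ ≠ Y ∧ W₃ ≠ W₁ ∧ W₃ ≠ W₂
  row₁ : ∀ i, a l₁ i =
    (if i = one then 1 else 0) + c₁ * (if i = W₁ then 1 else 0) + b * (if i = Y then 1 else 0)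
  row₂ : ∀ i, a l₂ i =
    (if i = one then 1 else 0) + c₂ * (if i = W₂ then 1 else 0) + b * (if i = Y then 1 else 0)
  row₀ : ∀ i, a l₀ i =
    (if i = one then 1 else 0) + c₁ * (if i = W₁ then 1 else 0) + c₂ * (if i = W₂ then 1 else 0)
      + c₃ * (if i = W₃ then 1 else 0)

/-- Signs and degrees in the generic shape (`k = |K|`, `q = 2k + δ`). -/
structure Degs [Finite G] (t : G) (K : Subgroup G) (l₀ : IrrCharacter K)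
    (δ ε e₁ e₂ : ℤ) (Δ Z₁ Z₂ : IrrCharacter G) (Θ : IrrCharacter K → IrrCharacter G) : Prop where
  hε : ε = δ
  he₁ : e₁ = -δ
  he₂ : e₂ = -δ
  degΔ : (Δ : G → ℂ) 1 = 2 * (Nat.card K : ℂ) + (δ : ℂ)
  degΘ : ∀ l, l ≠ trivIrr → l ≠ l₀ → (Θ l : G → ℂ) 1 = 2 * (Nat.card K : ℂ) + 2 * (δ : ℂ)
  degZ₁ : (Z₁ : G → ℂ) 1 = (Nat.card K : ℂ) + (δ : ℂ)
  degZ₂ : (Z₂ : G → ℂ) 1 = (Nat.card K : ℂ) + (δ : ℂ)
  index : ((Subgroup.centralizer ({t} : Set G)).index : ℤ) =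
    (2 * (Nat.card K : ℤ) + δ) * ((Nat.card K : ℤ) + δ)

/-- First half of the output of the first character stage (`k = |K|`, `q = 2k + δ`). -/
structure Stage1a (K : Subgroup G) (δ : ℤ) (Δ : IrrCharacter G) : Prop where
  hδ : δ = 1 ∨ δ = -1
  card : 2 * (Nat.card G : ℤ) = (2 * (Nat.card K : ℤ) + δ) * (2 * (Nat.card K : ℤ) + δ + 1)
    * (2 * (Nat.card K : ℤ) + δ - 1)
  index : ((Nat.card G : ℤ)) = 2 * (Nat.card K : ℤ) *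
    ((2 * (Nat.card K : ℤ) + δ) * ((Nat.card K : ℤ) + δ))
  deg : (Δ : G → ℂ) 1 = 2 * (Nat.card K : ℂ) + (δ : ℂ)
  valK : ∀ x ∈ K, x ≠ 1 → (Δ : G → ℂ) x = (δ : ℂ)
  inv_pos : δ = 1 → ∀ z, Off K z →
    (invCount z : ℂ) = 2 * (Nat.card K : ℂ) + 1 + (Nat.card K : ℂ) * (Δ : G → ℂ) z
  inv_neg : δ = -1 → ∀ z, Off K z →
    (invCount z : ℂ) = ((Nat.card K : ℂ) - 1) * (Δ : G → ℂ) z

/-- Output of the first character stage. -/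
structure Stage1 (K : Subgroup G) (δ : ℤ) (Δ : IrrCharacter G) : Prop where
  a : Stage1a K δ Δ
  off_val : ∀ z, Off K z → (Δ : G → ℂ) z = 0 ∨ (Δ : G → ℂ) z = -(δ : ℂ)
  card_E0 : (Nat.card {z : G // Off K z ∧ (Δ : G → ℂ) z = 0} : ℤ) =
    (2 * (Nat.card K : ℤ) + δ) ^ 2 - 1
  exists_E1 : ∃ z, Off K z ∧ (Δ : G → ℂ) z = -(δ : ℂ)

/-- The characters attached to `K` in the case `δ = -1` (`q = 2k - 1`). -/
structure KSeries [Finite G] (K : Subgroup G) (Δ Z₁ Z₂ : IrrCharacter G) (l₀ : IrrCharacter K)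
    (Θ : IrrCharacter K → IrrCharacter G) : Prop where
  l0_ne : l₀ ≠ trivIrr
  l0_real : cbar l₀ = l₀
  real_iff : ∀ l : IrrCharacter K, cbar l = l → l = trivIrr ∨ l = l₀
  hΔ : Δ ≠ trivIrr
  hZ₁ : Z₁ ≠ trivIrr ∧ Z₁ ≠ Δ
  hZ₂ : Z₂ ≠ trivIrr ∧ Z₂ ≠ Δ ∧ Z₂ ≠ Z₁
  hΘ : ∀ l, l ≠ trivIrr → l ≠ l₀ → Θ l ≠ trivIrr ∧ Θ l ≠ Δ ∧ Θ l ≠ Z₁ ∧ Θ l ≠ Z₂
  hΘeq : ∀ l l', l ≠ trivIrr → l ≠ l₀ → l' ≠ trivIrr → l' ≠ l₀ →
    (Θ l = Θ l' ↔ (l' = l ∨ l' = cbar l))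
  degΘ : ∀ l, l ≠ trivIrr → l ≠ l₀ → (Θ l : G → ℂ) 1 = 2 * (Nat.card K : ℂ) - 2
  degZ₁ : (Z₁ : G → ℂ) 1 = (Nat.card K : ℂ) - 1
  degZ₂ : (Z₂ : G → ℂ) 1 = (Nat.card K : ℂ) - 1
  offΘ : ∀ l, l ≠ trivIrr → l ≠ l₀ → ∀ z, Off K z → (Θ l : G → ℂ) z = (Δ : G → ℂ) z - 1
  offZ : ∀ z, Off K z → (Z₁ : G → ℂ) z + (Z₂ : G → ℂ) z = (Δ : G → ℂ) z - 1

/-- The structure of `M = C(z)` for `z` off `K` with `Δ z = 1` (case `δ = -1`). -/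
structure TorusData (K : Subgroup G) (Δ : IrrCharacter G) (M : Subgroup G) (u : G) : Prop where
  hab : ∀ a ∈ M, ∀ b ∈ M, a * b = b * a
  card : Nat.card M + 1 = Nat.card K
  hu : orderOf u = 2
  huM : u ∉ M
  hinv : ∀ d ∈ M, u * d * u⁻¹ = d⁻¹
  cent : ∀ y ∈ M, y ≠ 1 → Subgroup.centralizer ({y} : Set G) = M
  off : ∀ y ∈ M, y ≠ 1 → Off K y
  val : ∀ y ∈ M, y ≠ 1 → (Δ : G → ℂ) y = 1
  norm : Subgroup.normalizer (M : Set G) = M ⊔ Subgroup.zpowers u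

/-- The exceptional characters attached to `M` (case `δ = -1`). -/
structure DSeries [Finite G] (K : Subgroup G) (Δ : IrrCharacter G) (M : Subgroup G)
    (Y : IrrCharacter M → IrrCharacter G) : Prop where
  nonreal : ∀ ν : IrrCharacter M, ν ≠ trivIrr → cbar ν ≠ ν
  deg : ∀ ν, ν ≠ trivIrr → (Y ν : G → ℂ) 1 = 2 * (Nat.card K : ℂ)
  eq_iff : ∀ ν ν', ν ≠ trivIrr → ν' ≠ trivIrr → (Y ν = Y ν' ↔ (ν' = ν ∨ ν' = cbar ν))
  off : ∀ ν, ν ≠ trivIrr → ∀ y : G, (∀ g : G, g * y * g⁻¹ ∉ M) →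
    (Y ν : G → ℂ) y = 1 + (Δ : G → ℂ) y

/-- The subgroup `Q` in the case `δ = -1` (`|Q| = q = 2k - 1`). -/
structure QData (K : Subgroup G) (Δ : IrrCharacter G) (Q : Subgroup G) : Prop where
  hab : ∀ a ∈ Q, ∀ b ∈ Q, a * b = b * a
  card : Nat.card Q + 1 = 2 * Nat.card K
  cent : ∀ x ∈ Q, x ≠ 1 → Subgroup.centralizer ({x} : Set G) = Q
  off : ∀ x ∈ Q, x ≠ 1 → Off K x
  val : ∀ x ∈ Q, x ≠ 1 → (Δ : G → ℂ) x = 0
  normCard : Nat.card (Subgroup.normalizer (Q : Set G)) + Nat.card Q = Nat.card Q * Nat.card K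

end Cfsg.Agent.Lib.Helper46.BSW
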