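import Cfsg.Agent.Lib.Helper46.SLne

set_option autoImplicit false

namespace Cfsg.Agent.Lib.Helper46

open Matrix Cfsg Cfsg.Agent.Lib.Helper4 MulAction
open scoped ComplexConjugate

section SLnMain

open scoped Classical

variable {F : Type*} [Field F] [Fintype F] {m : ℕ}

omit [Fintype F] in
theorem slnP_ne_top : slnP F m ≠ ⊤ := by
  intro h
  have h10 : (1 : Fin (m + 3)) ≠ 0 := by
    intro h; have := congrArg Fin.val h; simp at this
  have ht : SpecialLinearGroup.transvection h10 (1 : F) ∈ slnP F m := h ▸ Subgroup.mem_top _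
  obtain ⟨c', hc'⟩ := ht
  rw [SpecialLinearGroup.transvection_smul_single_snd] at hc'
  have h1 := congrFun hc' 1
  simp [h10] at h1

theorem slnInd_one (θ : MulChar F ℂ) :
    indFun (slnP F m) (slnLam θ) 1 =
      (Nat.card (SpecialLinearGroup (Fin (m + 3)) F) : ℂ) / (Nat.card (slnP F m) : ℂ) := by
  unfold indFun
  have h1 : ∀ x : SpecialLinearGroup (Fin (m + 3)) F,
      extendByZero (slnP F m) (slnLam θ) (x⁻¹ * 1 * x) = 1 := by
    intro x
    have h2 : x⁻¹ * 1 * x = ((1 : slnP F m) : SpecialLinearGroup (Fin (m + 3)) F) := by simp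
    rw [h2, extendByZero_coe, map_one]
  simp_rw [h1]
  rw [Finset.sum_const, Finset.card_univ, nsmul_eq_mul, mul_one, ← Nat.card_eq_fintype_card,
    div_eq_inv_mul]

/-- The permutation character of `SL_n(q)`, `n ≥ 3`, on the non-zero vectors is the principal
character plus `q - 1` distinct irreducible characters. -/
theorem sln_perm_decomp :
    ∃ χ : Fin (Fintype.card F - 1) → (SpecialLinearGroup (Fin (m + 3)) F → ℂ),
      (∀ i, IsIrrCharacter (SpecialLinearGroup (Fin (m + 3)) F) (χ i)) ∧ Function.Injective χ ∧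
      ∀ g : SpecialLinearGroup (Fin (m + 3)) F,
        (Nat.card {v : Fin (m + 3) → F // v ≠ 0 ∧
          (g : Matrix (Fin (m + 3)) (Fin (m + 3)) F) *ᵥ v = v} : ℂ) = 1 + ∑ i, χ i g := by
  let _ : Fintype (MulChar F ℂ) := Fintype.ofFinite _
  have := irr_finite (G := SpecialLinearGroup (Fin (m + 3)) F)
  let _ : Fintype (IrrCharacter (SpecialLinearGroup (Fin (m + 3)) F)) := Fintype.ofFinite _
  set H := stabilizer (SpecialLinearGroup (Fin (m + 3)) F) (slnE0 F m) with hH
  let Pc : MulChar F ℂ → (SpecialLinearGroup (Fin (m + 3)) F → ℂ) :=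
    fun θ => indFun (slnP F m) (slnLam θ)
  have hPcchar : ∀ θ, IsCharacter (SpecialLinearGroup (Fin (m + 3)) F) (Pc θ) := fun θ =>
    isCharacter_indFun (slnP F m) _ (isCharacter_of_irr _ (isIrrCharacter_of_hom (slnLam θ)))
  have hsum : ∀ g, ∑ θ, Pc θ g = indFun H (fun _ => 1) g := sln_sum_ind
  have hπ : indFun H (fun _ => 1) = ∑ θ, Pc θ := by
    funext g; rw [Finset.sum_apply]; exact (hsum g).symm
  choose c hc using fun θ θ' => classInner_char_char_nat (Pc θ) (Pc θ') (hPcchar θ) (hPcchar θ')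
  obtain ⟨k, hk, hkq⟩ := sln_norm_le (F := F) (m := m)
  have htot : ∑ θ, ∑ θ', c θ θ' = k := by
    apply Nat.cast_injective (R := ℂ)
    rw [← hk, ← hH, hπ, classInner_finset_sum_left]
    push_cast
    refine Finset.sum_congr rfl fun θ _ => ?_
    rw [classInner_finset_sum_right]
    exact Finset.sum_congr rfl fun θ' _ => (hc θ θ').symm
  have hG0 : (Nat.card (SpecialLinearGroup (Fin (m + 3)) F) : ℂ) ≠ 0 :=
    Nat.cast_ne_zero.mpr Nat.card_pos.ne'
  have hP0 : (Nat.card (slnP F m) : ℂ) ≠ 0 := Nat.cast_ne_zero.mpr Nat.card_pos.ne'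
  have hPcne : ∀ θ, Pc θ ≠ 0 := by
    intro θ h
    have h1 := congrFun h 1
    simp only [Pc, Pi.zero_apply] at h1
    rw [slnInd_one] at h1
    exact div_ne_zero hG0 hP0 h1
  have hdiag : ∀ θ, 1 ≤ c θ θ := by
    intro θ
    by_contra h
    have h0 : c θ θ = 0 := by omega
    apply hPcne θ
    apply classInner_self_eq_zero
    rw [hc, h0]; simp
  set χ₀ : IrrCharacter (SpecialLinearGroup (Fin (m + 3)) F) :=
    ⟨fun _ => 1, isIrrCharacter_one⟩ with hχ₀
  have hPc1eq : Pc 1 = indFun (slnP F m) (fun _ => 1) := by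
    show indFun (slnP F m) (slnLam 1) = _
    congr 1
    funext p
    rw [slnLam_apply, MulChar.one_apply (isUnit_iff_ne_zero.mpr (slnP_entry_ne_zero p.1 p.2))]
  have hinner1 : classInner (Pc 1) (χ₀ : SpecialLinearGroup (Fin (m + 3)) F → ℂ) = 1 := by
    rw [hPc1eq, frobenius (slnP F m) _ _ (isClassFunction_irr χ₀)]
    unfold classInner
    simp only [hχ₀, map_one, Finset.sum_const, Finset.card_univ, nsmul_eq_mul, mul_one]
    rw [Nat.card_eq_fintype_card, inv_mul_cancel₀]
    exact Nat.cast_ne_zero.mpr Fintype.card_pos.ne'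
  set ρ : SpecialLinearGroup (Fin (m + 3)) F → ℂ :=
    Pc 1 - (χ₀ : SpecialLinearGroup (Fin (m + 3)) F → ℂ) with hρ
  have hρchar : IsCharacter (SpecialLinearGroup (Fin (m + 3)) F) ρ :=
    isCharacter_sub_irr _ (hPcchar 1) χ₀ (by rw [hinner1]; exact one_ne_zero)
  have hinner1' : classInner (χ₀ : SpecialLinearGroup (Fin (m + 3)) F → ℂ) (Pc 1) = 1 := by
    rw [classInner_conj_symm, hinner1]; simp
  have hρnorm : classInner ρ ρ = (c 1 1 : ℂ) - 1 := by
    rw [hρ, classInner_sub_left, classInner_sub_right, classInner_sub_right, hc, hinner1,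
      hinner1', classInner_irr, if_pos rfl]
    ring
  have hρne : ρ ≠ 0 := by
    intro h
    have h1 := congrFun h 1
    simp only [hρ, Pi.sub_apply, Pi.zero_apply, hχ₀, Pc] at h1
    rw [slnInd_one, sub_eq_zero, div_eq_one_iff_eq hP0] at h1
    have h2 : Nat.card (SpecialLinearGroup (Fin (m + 3)) F) = Nat.card (slnP F m) :=
      Nat.cast_injective h1
    exact slnP_ne_top (Subgroup.eq_top_of_card_eq _ h2.symm)
  have h0 : 2 ≤ c 1 1 := by
    obtain ⟨kρ, hkρ⟩ := classInner_char_char_nat ρ ρ hρchar hρchar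
    have hkρ0 : kρ ≠ 0 := by
      rintro rfl
      exact hρne (classInner_self_eq_zero _ (by rw [hkρ]; simp))
    have h1 : (kρ : ℂ) = (c 1 1 : ℂ) - 1 := by rw [← hkρ, hρnorm]
    have h2 : kρ + 1 = c 1 1 := by
      apply Nat.cast_injective (R := ℂ); push_cast; linear_combination h1
    omega
  obtain ⟨r1, r2, r3⟩ := nat_matrix_rigid (1 : MulChar F ℂ) c (Fintype.card F)
    (by rw [card_mulChar]; have := Fintype.one_lt_card (α := F); omega) hdiag h0
    (by rw [htot]; exact hkq)
  have hirr : ∀ θ, θ ≠ 1 → IsIrrCharacter (SpecialLinearGroup (Fin (m + 3)) F) (Pc θ) :=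
    fun θ hθ => isIrrCharacter_of_norm_one _ (hPcchar θ) (by rw [hc, r2 θ hθ]; simp)
  have hρirr : IsIrrCharacter (SpecialLinearGroup (Fin (m + 3)) F) ρ :=
    isIrrCharacter_of_norm_one _ hρchar (by rw [hρnorm, r1]; norm_num)
  have hρPc : ∀ θ, θ ≠ 1 → ρ ≠ Pc θ := by
    intro θ hθ hij
    have h1 : classInner ρ (Pc θ) = 1 := by rw [hij, hc, r2 _ hθ]; simp
    obtain ⟨n, hn⟩ := classInner_char_char_nat
      (χ₀ : SpecialLinearGroup (Fin (m + 3)) F → ℂ) (Pc θ) (isCharacter_of_irr _ χ₀.2) (hPcchar _)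
    rw [hρ, classInner_sub_left, hc, r3 1 θ (Ne.symm hθ), hn] at h1
    have h2 : ((n + 1 : ℕ) : ℂ) = 0 := by push_cast; linear_combination -h1
    exact absurd (Nat.cast_eq_zero.mp h2) (by omega)
  let e : Fin (Fintype.card F - 1) ≃ MulChar F ℂ := (Fintype.equivFinOfCardEq card_mulChar).symm
  refine ⟨fun i => if e i = 1 then ρ else Pc (e i), ?_, ?_, ?_⟩
  · intro i
    by_cases h : e i = 1
    · simp only [if_pos h]; exact hρirr
    · simp only [if_neg h]; exact hirr _ h
  · intro i j hij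
    by_cases hi : e i = 1 <;> by_cases hj : e j = 1
    · exact e.injective (hi.trans hj.symm)
    · exfalso
      simp only [if_pos hi, if_neg hj] at hij
      exact hρPc _ hj hij
    · exfalso
      simp only [if_neg hi, if_pos hj] at hij
      exact hρPc _ hi hij.symm
    · simp only [if_neg hi, if_neg hj] at hij
      by_contra hne
      have hne' : e i ≠ e j := fun h => hne (e.injective h)
      have h1 : classInner (Pc (e i)) (Pc (e j)) = 1 := by rw [← hij, hc, r2 _ hi]; simp
      rw [hc, r3 _ _ hne'] at h1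
      simp at h1
  · intro g
    rw [sln_perm_eq, ← hH, ← hsum g]
    rw [show (∑ i, (if e i = 1 then ρ else Pc (e i)) g) =
      ∑ θ : MulChar F ℂ, (if θ = 1 then ρ else Pc θ) g from
        Equiv.sum_comp e (fun θ => (if θ = 1 then ρ else Pc θ) g)]
    rw [← Finset.add_sum_erase _ _ (Finset.mem_univ (1 : MulChar F ℂ)),
      ← Finset.add_sum_erase (a := (1 : MulChar F ℂ)) _
        (fun θ => (if θ = 1 then ρ else Pc θ) g) (Finset.mem_univ _)]
    rw [if_pos rfl]
    have h1 : ∑ θ ∈ Finset.univ.erase (1 : MulChar F ℂ), (if θ = 1 then ρ else Pc θ) g =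
        ∑ θ ∈ Finset.univ.erase (1 : MulChar F ℂ), Pc θ g :=
      Finset.sum_congr rfl fun θ hθ => by rw [if_neg (Finset.ne_of_mem_erase hθ)]
    rw [h1]
    show Pc 1 g + _ = 1 + ((Pc 1 g - 1) + _)
    ring

end SLnMain

end Cfsg.Agent.Lib.Helper46
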