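import Mathlib
import Cfsg.Prelude.Def_Classical
import Cfsg.Agent.Lib.Helper18.UEDefs

/-!
# S2335 piece UE-E0 (for helper18): `trace (E0 * K) = hq σ K e₀`
-/

set_option autoImplicit false

namespace Cfsg.Agent.Lib.Helper18.UE

open Matrix

universe u

variable {F : Type u} [Field F] {m : ℕ}

-- piece E0
theorem E0_trace (hm : 1 ≤ m) (σ : F →+* F) (K : Matrix (Fin m) (Fin m) F) :
    trace (E0 m F * K) = hq σ K (Pi.single (⟨0, hm⟩ : Fin m) 1) := by
  classical
  have hE : ∀ i j : Fin m, E0 m F i j =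
      if i = (⟨0, hm⟩ : Fin m) ∧ j = (⟨0, hm⟩ : Fin m) then 1 else 0 := by
    intro i j
    unfold E0
    have e1 : (i.val = 0 ∧ j.val = 0) ↔ (i = (⟨0, hm⟩ : Fin m) ∧ j = (⟨0, hm⟩ : Fin m)) := by
      constructor
      · rintro ⟨h1, h2⟩
        exact ⟨Fin.ext h1, Fin.ext h2⟩
      · rintro ⟨h1, h2⟩
        exact ⟨by rw [h1], by rw [h2]⟩
    by_cases h : i.val = 0 ∧ j.val = 0
    · rw [if_pos h, if_pos (e1.mp h)]
    · rw [if_neg h, if_neg (fun h' => h (e1.mpr h'))]
  have hL : trace (E0 m F * K) = K (⟨0, hm⟩ : Fin m) (⟨0, hm⟩ : Fin m) := by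
    unfold trace
    simp only [diag_apply, mul_apply]
    rw [Finset.sum_eq_single (⟨0, hm⟩ : Fin m)]
    · rw [Finset.sum_eq_single (⟨0, hm⟩ : Fin m)]
      · rw [hE, if_pos ⟨rfl, rfl⟩, one_mul]
      · intro j _ hj
        rw [hE, if_neg (fun h => hj h.2), zero_mul]
      · intro h
        exact absurd (Finset.mem_univ _) h
    · intro i _ hi
      refine Finset.sum_eq_zero fun j _ => ?_
      rw [hE, if_neg (fun h => hi h.1), zero_mul]
    · intro h
      exact absurd (Finset.mem_univ _) h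
  have hR : hq σ K (Pi.single (⟨0, hm⟩ : Fin m) 1) = K (⟨0, hm⟩ : Fin m) (⟨0, hm⟩ : Fin m) := by
    unfold hq
    rw [hB_eq_sum]
    rw [Finset.sum_eq_single (⟨0, hm⟩ : Fin m)]
    · rw [Finset.sum_eq_single (⟨0, hm⟩ : Fin m)]
      · rw [Pi.single_eq_same, map_one, one_mul, mul_one]
      · intro j _ hj
        rw [Pi.single_eq_of_ne hj, mul_zero]
      · intro h
        exact absurd (Finset.mem_univ _) h
    · intro i _ hi
      refine Finset.sum_eq_zero fun j _ => ?_
      rw [Pi.single_eq_of_ne hi, map_zero, zero_mul, zero_mul]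
    · intro h
      exact absurd (Finset.mem_univ _) h
  rw [hL, hR]

end Cfsg.Agent.Lib.Helper18.UE
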