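import Cfsg.Agent.Lib.Helper46.BSW0
import Cfsg.Prelude.Def_LieExceptional
import Cfsg.Agent.S0731

set_option autoImplicit false

namespace Cfsg.Agent.Lib.Helper46.BSW

open Cfsg

universe u

variable {G : Type u} [Group G]

/-! ### Piece ZF : the final step through S0731 -/
theorem psl_of_zass [Finite G] {Ω : Type*} [MulAction G Ω] [Finite Ω]
    (hZ : Cfsg.IsZassenhausGroup G Ω) (x : Ω) (Q : Subgroup G)
    (hQle : Q ≤ MulAction.stabilizer G x)
    (hQn : (Q.subgroupOf (MulAction.stabilizer G x)).Normal) (hQab : IsMulCommutative Q)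
    (hreg : ∀ y z : Ω, y ≠ x → z ≠ x → ∃! u : Q, (u : G) • y = z)
    (hcard : 2 * Nat.card G = Nat.card Q * (Nat.card Q + 1) * (Nat.card Q - 1))
    (hΩ : Nat.card Ω = Nat.card Q + 1) (hq : 3 ≤ Nat.card Q) :
    ∃ (F : Type) (_ : Field F) (_ : Fintype F), Odd (Fintype.card F) ∧
      Nonempty (G ≃* Matrix.ProjectiveSpecialLinearGroup (Fin 2) F) := by
  rcases Cfsg.Agent.S0731.result hZ x Q hQle hQn hQab hreg with
    ⟨h3, -⟩ | ⟨K, iF, iFt, hch, hiso⟩
  · exfalso
    haveI : Fintype Ω := Fintype.ofFinite Ω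
    obtain ⟨m, hm⟩ : ∃ m, Nat.card Q = m + 3 := ⟨Nat.card Q - 3, by omega⟩
    have hcardE : Nat.card (Fin 3 ↪ Ω) = (m + 4) * (m + 3) * (m + 2) := by
      rw [Nat.card_eq_fintype_card, Fintype.card_embedding_eq, Fintype.card_fin,
        ← Nat.card_eq_fintype_card, hΩ, hm]
      simp [Nat.descFactorial]
      ring
    have hpos : 0 < Nat.card (Fin 3 ↪ Ω) := by rw [hcardE]; positivity
    obtain ⟨t₀⟩ : Nonempty (Fin 3 ↪ Ω) := (Nat.card_pos_iff.mp hpos).1
    haveI : MulAction.IsPretransitive G (Fin 3 ↪ Ω) := h3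
    have hsurj : Function.Surjective (fun g : G => g • t₀) :=
      fun t => MulAction.exists_smul_eq G t₀ t
    have hle : Nat.card (Fin 3 ↪ Ω) ≤ Nat.card G := Nat.card_le_card_of_surjective _ hsurj
    rw [hcardE] at hle
    rw [hm] at hcard
    have h2 : m + 3 - 1 = m + 2 := by omega
    rw [h2] at hcard
    have hpos2 : 0 < (m + 4) * (m + 3) * (m + 2) := by positivity
    nlinarith
  · refine ⟨K, iF, iFt, ?_, hiso⟩
    by_contra hodd
    rw [Nat.not_odd_iff_even, Nat.even_iff] at hodd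
    exact hch (FiniteField.even_card_iff_char_two.mpr hodd)

end Cfsg.Agent.Lib.Helper46.BSW
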