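import Cfsg.Agent.Lib.Helper46.BSW0
import Cfsg.Agent.Lib.Helper85.BSW2ZA
import Cfsg.Agent.Lib.Helper19.BSW2ZR
import Cfsg.Agent.Lib.Helper62.BSW2ZZ
import Cfsg.Agent.Lib.Helper46.BSW2ZF

set_option autoImplicit false

namespace Cfsg.Agent.Lib.Helper46.BSW

open Cfsg

universe u

variable {G : Type u} [Group G]

/-! ### Piece Z : from the conclusion of Brauer–Suzuki–Wall to `PSL(2, F)` -/
theorem psl_of_concl [Finite G] [IsSimpleGroup G] (hC : Concl G) :
    ∃ (F : Type) (_ : Field F) (_ : Fintype F), Odd (Fintype.card F) ∧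
      Nonempty (G ≃* Matrix.ProjectiveSpecialLinearGroup (Fin 2) F) := by
  obtain ⟨Q, D, hcard, hcent, -, hD, hQD, hN, -⟩ := hC
  obtain ⟨hq5, hNcard, hidx⟩ := concl_arith Q D hcard hcent hD hQD hN
  have hreg := concl_regular Q D hcent hD hQD hN hNcard hidx
  have hstab : MulAction.stabilizer G ((1 : G) : G ⧸ Subgroup.normalizer (Q : Set G)) =
      Subgroup.normalizer (Q : Set G) := MulAction.stabilizer_quotient _
  have hΩ : Nat.card (G ⧸ Subgroup.normalizer (Q : Set G)) = Nat.card Q + 1 := by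
    rw [← hidx]; rfl
  have hd : ∃ d ∈ Subgroup.normalizer (Q : Set G), d ∉ Q := by
    have h1 : 1 < Nat.card D := by omega
    haveI : Nontrivial D := Finite.one_lt_card_iff_nontrivial.mp h1
    obtain ⟨d, hd⟩ := exists_ne (1 : D)
    refine ⟨d, ?_, ?_⟩
    · rw [hN]; exact Subgroup.mem_sup_right d.2
    · intro hdQ
      have : (d : G) ∈ Q ⊓ D := ⟨hdQ, d.2⟩
      rw [hQD, Subgroup.mem_bot] at this
      exact hd (Subtype.ext this)
  have hZ : Cfsg.IsZassenhausGroup G (G ⧸ Subgroup.normalizer (Q : Set G)) :=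
    zass_of_regular _ Q hstab hcent hreg (by omega) hd
  have hQab : IsMulCommutative Q := by
    refine ⟨⟨fun a b => ?_⟩⟩
    by_cases hb : b = 1
    · rw [hb, mul_one, one_mul]
    · have hb' : (b : G) ≠ 1 := fun h => hb (Subtype.ext h)
      have ha : (a : G) ∈ Subgroup.centralizer ({(b : G)} : Set G) := by
        rw [hcent b b.2 hb']; exact a.2
      rw [Subgroup.mem_centralizer_iff] at ha
      exact Subtype.ext (ha b rfl).symm
  have hQle : Q ≤ MulAction.stabilizer G ((1 : G) : G ⧸ Subgroup.normalizer (Q : Set G)) := by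
    rw [hstab]; exact Subgroup.le_normalizer
  have hQn : (Q.subgroupOf (MulAction.stabilizer G
      ((1 : G) : G ⧸ Subgroup.normalizer (Q : Set G)))).Normal := by
    rw [hstab]; exact Subgroup.normal_in_normalizer
  exact psl_of_zass hZ _ Q hQle hQn hQab hreg hcard hΩ (by omega)

end Cfsg.Agent.Lib.Helper46.BSW
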