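import Cfsg.Agent.Lib.Helper46.BSW0
import Cfsg.Agent.Lib.Helper90.BSWAB
import Cfsg.Agent.Lib.Helper92.BSWG1
import Cfsg.Agent.Lib.Helper87.BSWG0
import Cfsg.Agent.Lib.Helper87.BSWG2
import Cfsg.Agent.Lib.Helper87.BSWRR
import Cfsg.Agent.Lib.Helper59.BSWG3
import Cfsg.Agent.Lib.Helper59.BSWR
import Cfsg.Agent.Lib.Helper35.BSWIND
import Cfsg.Agent.Lib.Helper2.BSWSC
import Cfsg.Agent.Lib.Helper18.BSWShape
import Cfsg.Agent.Lib.Helper90.BSWEXC
import Cfsg.Agent.Lib.Helper46.BSWVala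
import Cfsg.Agent.Lib.Helper86.BSWDFAM
import Cfsg.Agent.Lib.Helper16.BSWCOMPL
import Cfsg.Agent.Lib.Helper30.BSWE0CH
import Cfsg.Agent.Lib.Helper65.BSWE0A
import Cfsg.Agent.Lib.Helper14.BSWE0B
import Cfsg.Agent.Lib.Helper75.BSWK2
import Cfsg.Agent.Lib.Helper56.BSWFINM
import Cfsg.Agent.Lib.Helper64.BSWDEG
import Cfsg.Agent.Lib.Helper67.BSWE1
import Cfsg.Agent.Lib.Helper77.BSWVALB
import Cfsg.Agent.Lib.Helper19.BSWFINP

set_option autoImplicit false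
set_option linter.style.haveILetI false

namespace Cfsg.Agent.Lib.Helper46.BSW

open Cfsg Cfsg.Agent.Lib.Helper4
open scoped ComplexConjugate

universe u

variable {G : Type u} [Group G]

/-- The first character stage. -/
theorem stage1_exists [Fintype G] [Fintype (IrrCharacter G)] {t s : G} {K : Subgroup G}
    (h : Setup t s K) [Fintype (IrrCharacter K)] (hk : 4 ≤ Nat.card K) :
    ∃ (δ : ℤ) (Δ : IrrCharacter G), (δ = 1 ∨ δ = -1) ∧ Stage1 K δ Δ ∧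
      (δ = -1 → ∃ (Z₁ Z₂ : IrrCharacter G) (l₀ : IrrCharacter K)
        (Θ : IrrCharacter K → IrrCharacter G), KSeries K Δ Z₁ Z₂ l₀ Θ) := by
  classical
  obtain ⟨c, hc⟩ := indData_exists K h.hKab s h.hinv h.hsK (setup_ti' h)
  obtain ⟨l₀, hl₀, hl₀r, hreal⟩ := exists_l0 h
  have hsc := fun l hl => sc_eq h c hc l hl
  have hdn : ∀ χ : IrrCharacter G, ∃ n : ℕ, 0 < n ∧ (χ : G → ℂ) 1 = (n : ℂ) := fun χ =>
    irr_one_nat χ
  choose dn hdn0 hdn1 using hdn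
  have hKab' : ∀ a b : K, a * b = b * a := fun a b =>
    Subtype.ext (h.hKab a a.2 b b.2)
  have hcardL : 4 ≤ Fintype.card (IrrCharacter K) := by
    rw [← Nat.card_eq_fintype_card, ab_card hKab']
    exact hk
  have hfix : ∀ l : IrrCharacter K, cbar l = l ↔ (l = trivIrr ∨ l = l₀) := by
    intro l
    constructor
    · exact hreal l
    · rintro (rfl | rfl)
      · exact cbar_triv
      · exact hl₀r
  have hdeg : ∀ l : IrrCharacter K, l ≠ trivIrr →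
      ∑ χ : IrrCharacter G, c l χ * (dn χ : ℤ) = 0 := by
    intro l _
    have h1 := hc.vanish l 1 (Or.inl rfl)
    have h2 : ((∑ χ : IrrCharacter G, c l χ * (dn χ : ℤ) : ℤ) : ℂ) = 0 := by
      rw [← h1]
      push_cast
      refine Finset.sum_congr rfl fun χ _ => ?_
      rw [hdn1 χ]
    exact_mod_cast h2
  have hd1 : ((dn (trivIrr : IrrCharacter G) : ℕ) : ℤ) = 1 := by
    have h1 := hdn1 (trivIrr : IrrCharacter G)
    rw [trivIrr_apply] at h1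
    exact_mod_cast h1.symm
  rcases shape_comb c (fun χ => (dn χ : ℤ)) trivIrr trivIrr l₀ cbar
      (fun χ => by exact_mod_cast hdn0 χ) hd1 cbar_cbar hl₀ hfix hc.triv_col
      (fun l l' hl hl' => by convert hc.gram l l' hl hl') hc.bar hdeg hcardL with
    ⟨δ, ε, e₁, e₂, Δ, Z₁, Z₂, Θ, hS⟩ | ⟨l₁, l₂, Y, W₁, W₂, W₃, b, c₁, c₂, c₃, hE⟩
  · have hD := degs_of_shape h hk c hc l₀ hl₀ hl₀r hreal hsc (setup_hall h) δ ε e₁ e₂ Δ Z₁ Z₂ Θ hS
    obtain ⟨hA, hKS⟩ := stage1a_of_degs h hk c hc l₀ hl₀ hl₀r hreal δ ε e₁ e₂ Δ Z₁ Z₂ Θ hS hD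
    exact ⟨δ, Δ, hS.hδ, stage1_of_stage1a h hk δ Δ hS.hΔ hA,
      fun hδ => ⟨Z₁, Z₂, l₀, Θ, hKS hδ⟩⟩
  · exact (exc_false h c hc l₀ hl₀ hl₀r hreal hsc l₁ l₂ Y W₁ W₂ W₃ b c₁ c₂ c₃ hE).elim

/-- The Brauer–Suzuki–Wall theorem in abstract form. -/
theorem bsw_main [Finite G] {t s : G} {K : Subgroup G} (h : Setup t s K) : Concl G := by
  classical
  letI : Fintype G := Fintype.ofFinite G
  haveI : Finite (IrrCharacter G) := irr_finite
  letI : Fintype (IrrCharacter G) := Fintype.ofFinite _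
  haveI : Finite (IrrCharacter K) := irr_finite
  letI : Fintype (IrrCharacter K) := Fintype.ofFinite _
  have hev := setup_even h
  by_cases hk2 : Nat.card K = 2
  · exact concl_two h hk2
  have hk : 4 ≤ Nat.card K := by
    have hpos : 0 < Nat.card K := Nat.card_pos
    obtain ⟨r, hr⟩ := hev
    omega
  obtain ⟨δ, Δ, hδ, hS, hKS⟩ := stage1_exists h hk
  rcases hδ with rfl | rfl
  · exact concl_pos h hk Δ hS
  · obtain ⟨Z₁, Z₂, l₀, Θ, hKS⟩ := hKS rfl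
    have hnr := fun y hy hy0 => not_real h Δ hS.a y hy hy0
    have hE1 := fun z hz hz1 => torus_of_E1 h hk Δ hS z hz hz1
    obtain ⟨z, hz, hz1⟩ := hS.exists_E1
    have hz1' : (Δ : G → ℂ) z = 1 := by
      rw [hz1]; push_cast; ring
    obtain ⟨u, hT⟩ := hE1 z hz hz1'
    haveI : Finite (IrrCharacter (Subgroup.centralizer ({z} : Set G))) := irr_finite
    letI : Fintype (IrrCharacter (Subgroup.centralizer ({z} : Set G))) := Fintype.ofFinite _
    have hdeg : (Δ : G → ℂ) 1 = 2 * (Nat.card K : ℂ) - 1 := by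
      rw [hS.a.deg]; push_cast; ring
    obtain ⟨Y, hY⟩ := dseries_exists K Δ hKS.hΔ hdeg _ u hT
    have hsum := sum_formula K h.hKab hk Δ Z₁ Z₂ l₀ Θ hS.a hKS _ u hT Y hY
    have hch := fun y hy hy0 =>
      e0_char K h.hKab hk Δ Z₁ Z₂ l₀ Θ hS hKS _ u hT Y hY hsum y hy hy0 (hnr y hy hy0)
    have hcard := fun y hy hy0 => (hch y hy hy0).1
    obtain ⟨hcent, hcls⟩ := e0_classes h hk Δ hS hE1 hcard hnr
    obtain ⟨Q, hQ⟩ := qdata_exists h hk Δ hS hcard hnr hcent hcls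
      (fun y y₃ hy hy0 hy3 hy30 => (hch y hy hy0).2 y₃ hy3 hy30)
    exact concl_neg h hk Δ hS hE1 hcard Q hQ

end Cfsg.Agent.Lib.Helper46.BSW
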