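import Cfsg.Agent.Lib.Helper46.BSW0
import Cfsg.Agent.Lib.Helper90.BSWAB
import Cfsg.Agent.Lib.Helper92.BSWG1
import Cfsg.Agent.Lib.Helper62.Cent4B

set_option autoImplicit false
set_option linter.style.haveILetI false

namespace Cfsg.Agent.Lib.Helper46.BSWVala

open Cfsg Cfsg.Agent.Lib.Helper4 Cfsg.Agent.Lib.Helper46.BSW
open scoped ComplexConjugate

universe u

variable {G : Type u} [Group G]

section Gen

theorem sum_ite_mul' {ι : Type*} [Fintype ι] (A : ι) (F : ι → ℂ)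
    (inst : ∀ χ, Decidable (χ = A)) :
    ∑ χ : ι, (if χ = A then (1 : ℂ) else 0) * F χ = F A := by
  rw [Finset.sum_eq_single A]
  · rw [if_pos rfl, one_mul]
  · intro b _ hb
    rw [if_neg hb, zero_mul]
  · intro hA
    exact absurd (Finset.mem_univ A) hA

theorem row_sum3 {ι : Type*} [Fintype ι] (a : ι → ℤ) (A B C : ι) (x y z : ℤ)
    (i1 : ∀ χ, Decidable (χ = A)) (i2 : ∀ χ, Decidable (χ = B)) (i3 : ∀ χ, Decidable (χ = C))
    (hrow : ∀ χ, a χ = x * (if χ = A then 1 else 0) + y * (if χ = B then 1 else 0)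
      + z * (if χ = C then 1 else 0)) (F : ι → ℂ) :
    ∑ χ : ι, (a χ : ℂ) * F χ = x * F A + y * F B + z * F C := by
  have e : ∀ χ : ι, (a χ : ℂ) * F χ = (x : ℂ) * ((if χ = A then (1 : ℂ) else 0) * F χ)
      + (y : ℂ) * ((if χ = B then (1 : ℂ) else 0) * F χ)
      + (z : ℂ) * ((if χ = C then (1 : ℂ) else 0) * F χ) := by
    intro χ
    rw [hrow χ]
    push_cast
    ring
  simp_rw [e]
  rw [Finset.sum_add_distrib, Finset.sum_add_distrib, ← Finset.mul_sum, ← Finset.mul_sum,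
    ← Finset.mul_sum, sum_ite_mul', sum_ite_mul', sum_ite_mul']

theorem row_sum4 {ι : Type*} [Fintype ι] (a : ι → ℤ) (A B C D : ι) (x y z w : ℤ)
    (i1 : ∀ χ, Decidable (χ = A)) (i2 : ∀ χ, Decidable (χ = B)) (i3 : ∀ χ, Decidable (χ = C))
    (i4 : ∀ χ, Decidable (χ = D))
    (hrow : ∀ χ, a χ = x * (if χ = A then 1 else 0) + y * (if χ = B then 1 else 0)
      + z * (if χ = C then 1 else 0) + w * (if χ = D then 1 else 0)) (F : ι → ℂ) :
    ∑ χ : ι, (a χ : ℂ) * F χ = x * F A + y * F B + z * F C + w * F D := by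
  have e : ∀ χ : ι, (a χ : ℂ) * F χ = (x : ℂ) * ((if χ = A then (1 : ℂ) else 0) * F χ)
      + (y : ℂ) * ((if χ = B then (1 : ℂ) else 0) * F χ)
      + (z : ℂ) * ((if χ = C then (1 : ℂ) else 0) * F χ)
      + (w : ℂ) * ((if χ = D then (1 : ℂ) else 0) * F χ) := by
    intro χ
    rw [hrow χ]
    push_cast
    ring
  simp_rw [e]
  rw [Finset.sum_add_distrib, Finset.sum_add_distrib, Finset.sum_add_distrib,
    ← Finset.mul_sum, ← Finset.mul_sum, ← Finset.mul_sum, ← Finset.mul_sum,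
    sum_ite_mul', sum_ite_mul', sum_ite_mul', sum_ite_mul']

end Gen

section Cols

open scoped Classical

variable [Fintype G] [Fintype (IrrCharacter G)] {t s : G} {K : Subgroup G}
  [Fintype (IrrCharacter K)] {c : IrrCharacter K → IrrCharacter G → ℤ} {l₀ : IrrCharacter K}
  {δ ε e₁ e₂ : ℤ} {Δ Z₁ Z₂ : IrrCharacter G} {Θ : IrrCharacter K → IrrCharacter G}

theorem colΔ (hc : IndData K c) (hS : Shape c trivIrr trivIrr l₀ cbar δ ε e₁ e₂ Δ Z₁ Z₂ Θ)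
    (l : IrrCharacter K) : c l Δ = if l = trivIrr then 0 else δ := by
  classical
  by_cases hl : l = trivIrr
  · rw [if_pos hl, hl, hc.triv_row]
  rw [if_neg hl]
  by_cases hl0 : l = l₀
  · rw [hl0, hS.row₀, if_neg hS.hΔ, if_pos rfl, if_neg (Ne.symm hS.hZ₁.2),
      if_neg (Ne.symm hS.hZ₂.2.1)]
    ring
  · rw [hS.row l hl hl0, if_neg hS.hΔ, if_pos rfl, if_neg (Ne.symm (hS.hΘ l hl hl0).2.1)]
    ring

theorem colZ₁ (hc : IndData K c) (hS : Shape c trivIrr trivIrr l₀ cbar δ ε e₁ e₂ Δ Z₁ Z₂ Θ)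
    (l : IrrCharacter K) : c l Z₁ = if l = l₀ then e₁ else 0 := by
  classical
  by_cases hl0 : l = l₀
  · rw [if_pos hl0, hl0, hS.row₀, if_neg hS.hZ₁.1, if_neg hS.hZ₁.2, if_pos rfl,
      if_neg (Ne.symm hS.hZ₂.2.2)]
    ring
  rw [if_neg hl0]
  by_cases hl : l = trivIrr
  · rw [hl, hc.triv_row]
  · rw [hS.row l hl hl0, if_neg hS.hZ₁.1, if_neg hS.hZ₁.2,
      if_neg (Ne.symm (hS.hΘ l hl hl0).2.2.1)]
    ring

theorem colZ₂ (hc : IndData K c) (hS : Shape c trivIrr trivIrr l₀ cbar δ ε e₁ e₂ Δ Z₁ Z₂ Θ)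
    (l : IrrCharacter K) : c l Z₂ = if l = l₀ then e₂ else 0 := by
  classical
  by_cases hl0 : l = l₀
  · rw [if_pos hl0, hl0, hS.row₀, if_neg hS.hZ₂.1, if_neg hS.hZ₂.2.1, if_neg hS.hZ₂.2.2,
      if_pos rfl]
    ring
  rw [if_neg hl0]
  by_cases hl : l = trivIrr
  · rw [hl, hc.triv_row]
  · rw [hS.row l hl hl0, if_neg hS.hZ₂.1, if_neg hS.hZ₂.2.1,
      if_neg (Ne.symm (hS.hΘ l hl hl0).2.2.2)]
    ring

theorem colΘ (hc : IndData K c) (hS : Shape c trivIrr trivIrr l₀ cbar δ ε e₁ e₂ Δ Z₁ Z₂ Θ)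
    (hl₀ : l₀ ≠ trivIrr) (hl₀r : cbar l₀ = l₀)
    (hreal : ∀ l : IrrCharacter K, cbar l = l → l = trivIrr ∨ l = l₀)
    (l : IrrCharacter K) (hl : l ≠ trivIrr) (hl0 : l ≠ l₀) (l' : IrrCharacter K) :
    c l' (Θ l) = (if l' = l then -ε else 0) + (if l' = cbar l then -ε else 0) := by
  classical
  have hΘl := hS.hΘ l hl hl0
  have hbl : cbar l ≠ l₀ := by
    intro hh
    have := congrArg cbar hh
    rw [cbar_cbar, hl₀r] at this
    exact hl0 this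
  have hbt : cbar l ≠ trivIrr := by
    intro hh
    have := congrArg cbar hh
    rw [cbar_cbar, cbar_triv] at this
    exact hl this
  by_cases h1 : l' = trivIrr
  · rw [h1, hc.triv_row, if_neg (Ne.symm hl), if_neg (Ne.symm hbt)]
    ring
  by_cases h0 : l' = l₀
  · rw [h0, hS.row₀, if_neg hΘl.1, if_neg hΘl.2.1, if_neg hΘl.2.2.1, if_neg hΘl.2.2.2,
      if_neg (Ne.symm hl0), if_neg (Ne.symm hbl)]
    ring
  rw [hS.row l' h1 h0, if_neg hΘl.1, if_neg hΘl.2.1]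
  have hiff := hS.hΘeq l l' hl hl0 h1 h0
  by_cases ha : l' = l
  · subst ha
    rw [if_pos rfl, if_pos rfl]
    by_cases hb : l' = cbar l'
    · exfalso
      rcases hreal l' hb.symm with h2 | h2
      · exact h1 h2
      · exact h0 h2
    · rw [if_neg hb]
      ring
  · rw [if_neg ha]
    by_cases hb : l' = cbar l
    · rw [if_pos hb, if_pos (hiff.mpr (Or.inr hb))]
      ring
    · rw [if_neg hb, if_neg (fun hh => by
        rcases hiff.mp hh with h2 | h2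
        · exact ha h2
        · exact hb h2)]
      ring

end Cols

section Vals

open scoped Classical

variable [Fintype G] [Fintype (IrrCharacter G)] {t s : G} {K : Subgroup G}
  [Fintype (IrrCharacter K)] {c : IrrCharacter K → IrrCharacter G → ℤ} {l₀ : IrrCharacter K}
  {δ ε e₁ e₂ : ℤ} {Δ Z₁ Z₂ : IrrCharacter G} {Θ : IrrCharacter K → IrrCharacter G}

theorem rowsum (hS : Shape c trivIrr trivIrr l₀ cbar δ ε e₁ e₂ Δ Z₁ Z₂ Θ)
    (l : IrrCharacter K) (hl : l ≠ trivIrr) (hl0 : l ≠ l₀) (F : IrrCharacter G → ℂ) :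
    ∑ χ : IrrCharacter G, (c l χ : ℂ) * F χ = F trivIrr + δ * F Δ - ε * F (Θ l) := by
  have := row_sum3 (c l) trivIrr Δ (Θ l) 1 δ (-ε) (fun _ => Classical.propDecidable _)
    (fun _ => Classical.propDecidable _) (fun _ => Classical.propDecidable _)
    (fun χ => by rw [hS.row l hl hl0 χ]; ring) F
  rw [this]
  push_cast
  ring

theorem rowsum₀ (hS : Shape c trivIrr trivIrr l₀ cbar δ ε e₁ e₂ Δ Z₁ Z₂ Θ)
    (F : IrrCharacter G → ℂ) :
    ∑ χ : IrrCharacter G, (c l₀ χ : ℂ) * F χ = F trivIrr + δ * F Δ + e₁ * F Z₁ + e₂ * F Z₂ := by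
  have := row_sum4 (c l₀) trivIrr Δ Z₁ Z₂ 1 δ e₁ e₂ (fun _ => Classical.propDecidable _)
    (fun _ => Classical.propDecidable _) (fun _ => Classical.propDecidable _)
    (fun _ => Classical.propDecidable _)
    (fun χ => by rw [hS.row₀ χ]; ring) F
  rw [this]
  push_cast
  ring

theorem sumK (h : Setup t s K) (x : K) (hx : x ≠ 1) :
    ∑ l : IrrCharacter K, (l : K → ℂ) x = 0 :=
  ab_sum (fun a b => Subtype.ext (h.hKab a a.2 b b.2)) x hx

theorem valΔ (h : Setup t s K) (hc : IndData K c)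
    (hS : Shape c trivIrr trivIrr l₀ cbar δ ε e₁ e₂ Δ Z₁ Z₂ Θ) (x : K) (hx : x ≠ 1) :
    (Δ : G → ℂ) x = δ := by
  rw [hc.fourier Δ x hx]
  have e : ∀ l : IrrCharacter K, (c l Δ : ℂ) * (l : K → ℂ) x =
      (δ : ℂ) * (l : K → ℂ) x - (δ : ℂ) * ((if l = trivIrr then (1 : ℂ) else 0) * (l : K → ℂ) x) := by
    intro l
    rw [colΔ hc hS l]
    by_cases hl : l = trivIrr
    · rw [if_pos hl, if_pos hl]; push_cast; ring
    · rw [if_neg hl, if_neg hl]; ring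
  simp_rw [e]
  rw [Finset.sum_sub_distrib, ← Finset.mul_sum, ← Finset.mul_sum, sumK h x hx, sum_ite_mul',
    trivIrr_apply]
  ring

theorem valZ₁ (hc : IndData K c)
    (hS : Shape c trivIrr trivIrr l₀ cbar δ ε e₁ e₂ Δ Z₁ Z₂ Θ) (x : K) (hx : x ≠ 1) :
    (Z₁ : G → ℂ) x = -(e₁ : ℂ) * (l₀ : K → ℂ) x := by
  rw [hc.fourier Z₁ x hx]
  have e : ∀ l : IrrCharacter K, (c l Z₁ : ℂ) * (l : K → ℂ) x =
      (e₁ : ℂ) * ((if l = l₀ then (1 : ℂ) else 0) * (l : K → ℂ) x) := by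
    intro l
    rw [colZ₁ hc hS l]
    by_cases hl : l = l₀
    · rw [if_pos hl, if_pos hl]; ring
    · rw [if_neg hl, if_neg hl]; push_cast; ring
  simp_rw [e]
  rw [← Finset.mul_sum, sum_ite_mul']
  ring

theorem valZ₂ (hc : IndData K c)
    (hS : Shape c trivIrr trivIrr l₀ cbar δ ε e₁ e₂ Δ Z₁ Z₂ Θ) (x : K) (hx : x ≠ 1) :
    (Z₂ : G → ℂ) x = -(e₂ : ℂ) * (l₀ : K → ℂ) x := by
  rw [hc.fourier Z₂ x hx]
  have e : ∀ l : IrrCharacter K, (c l Z₂ : ℂ) * (l : K → ℂ) x =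
      (e₂ : ℂ) * ((if l = l₀ then (1 : ℂ) else 0) * (l : K → ℂ) x) := by
    intro l
    rw [colZ₂ hc hS l]
    by_cases hl : l = l₀
    · rw [if_pos hl, if_pos hl]; ring
    · rw [if_neg hl, if_neg hl]; push_cast; ring
  simp_rw [e]
  rw [← Finset.mul_sum, sum_ite_mul']
  ring

theorem valΘ (hc : IndData K c)
    (hS : Shape c trivIrr trivIrr l₀ cbar δ ε e₁ e₂ Δ Z₁ Z₂ Θ)
    (hl₀ : l₀ ≠ trivIrr) (hl₀r : cbar l₀ = l₀)
    (hreal : ∀ l : IrrCharacter K, cbar l = l → l = trivIrr ∨ l = l₀)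
    (l : IrrCharacter K) (hl : l ≠ trivIrr) (hl0 : l ≠ l₀) (x : K) (hx : x ≠ 1) :
    (Θ l : G → ℂ) x = (ε : ℂ) * ((l : K → ℂ) x + conj ((l : K → ℂ) x)) := by
  rw [hc.fourier (Θ l) x hx]
  have e : ∀ l' : IrrCharacter K, (c l' (Θ l) : ℂ) * (l' : K → ℂ) x =
      -(ε : ℂ) * ((if l' = l then (1 : ℂ) else 0) * (l' : K → ℂ) x)
      - (ε : ℂ) * ((if l' = cbar l then (1 : ℂ) else 0) * (l' : K → ℂ) x) := by
    intro l'
    rw [colΘ hc hS hl₀ hl₀r hreal l hl hl0 l']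
    by_cases h1 : l' = l
    · by_cases h2 : l' = cbar l
      · rw [if_pos h1, if_pos h2, if_pos h1, if_pos h2]; push_cast; ring
      · rw [if_pos h1, if_neg h2, if_pos h1, if_neg h2]; push_cast; ring
    · by_cases h2 : l' = cbar l
      · rw [if_neg h1, if_pos h2, if_neg h1, if_pos h2]; push_cast; ring
      · rw [if_neg h1, if_neg h2, if_neg h1, if_neg h2]; push_cast; ring
  simp_rw [e]
  rw [Finset.sum_sub_distrib, ← Finset.mul_sum, ← Finset.mul_sum, sum_ite_mul', sum_ite_mul',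
    cbar_apply]
  ring

end Vals

section Count

variable [Fintype G] [Fintype (IrrCharacter G)] {t s : G} {K : Subgroup G}

theorem isConj_t_iff (h : Setup t s K) (g : G) : IsConj t g ↔ orderOf g = 2 := by
  haveI : Fact (Nat.Prime 2) := ⟨Nat.prime_two⟩
  constructor
  · intro hg
    obtain ⟨c, hc⟩ := isConj_iff.mp hg
    have ht := (orderOf_eq_prime_iff (p := 2)).mp h.ht
    rw [← hc]
    apply orderOf_eq_prime
    · rw [conj_pow, ht.1, mul_one, mul_inv_cancel]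
    · intro h1
      apply ht.2
      have : t = c⁻¹ * (c * t * c⁻¹) * c := by group
      rw [this, h1]
      group
  · intro hg
    exact h.hconj t g h.ht hg

open scoped Classical in
theorem pairs_eq_invCount (h : Setup t s K) (z : G) (hz : Off K z) :
    ∑ g : G, ∑ h' : G, (if IsConj t g then (1 : ℂ) else 0) * (if IsConj t h' then (1 : ℂ) else 0)
        * (if g * h' * z = 1 then (1 : ℂ) else 0) = (invCount z : ℂ) := by
  haveI : Fact (Nat.Prime 2) := ⟨Nat.prime_two⟩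
  rw [Cfsg.Agent.Lib.Helper62.classSum_eq_card t z]
  congr 1
  unfold invCount
  rw [Nat.card_eq_fintype_card, Fintype.card_subtype]
  congr 1
  apply Finset.filter_congr
  intro g _
  rw [isConj_t_iff h, isConj_t_iff h]
  constructor
  · rintro ⟨h1, h2⟩
    refine ⟨h1, ?_⟩
    have hg2 := ((orderOf_eq_prime_iff (p := 2)).mp h1).1
    have h3 := ((orderOf_eq_prime_iff (p := 2)).mp h2).1
    have hgi : g⁻¹ = g := by
      rw [inv_eq_iff_mul_eq_one, ← pow_two, hg2]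
    rw [pow_two] at h3
    have h4 : g⁻¹ * z⁻¹ = (g⁻¹ * z⁻¹)⁻¹ := by
      rw [eq_inv_iff_mul_eq_one]; exact h3
    rw [mul_inv_rev, inv_inv, inv_inv] at h4
    -- h4 : g⁻¹ * z⁻¹ = z * g
    have : z⁻¹ = g * (z * g) := by rw [← h4]; group
    rw [this, hgi]
    group
  · rintro ⟨h1, h2⟩
    refine ⟨h1, ?_⟩
    have hg2 := ((orderOf_eq_prime_iff (p := 2)).mp h1).1
    apply orderOf_eq_prime
    · have h5 : g⁻¹ * z⁻¹ = z * g⁻¹ := by
        rw [← h2]; group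
      rw [pow_two]
      nth_rewrite 1 [h5]
      have : z * g⁻¹ * (g⁻¹ * z⁻¹) = z * (g ^ 2)⁻¹ * z⁻¹ := by group
      rw [this, hg2]
      group
    · intro h6
      have hz2 : z = g⁻¹ := by
        have : z⁻¹ = g := by
          have := congrArg (fun w => g * w) h6
          simpa using this
        rw [← this, inv_inv]
      have : orderOf z = 2 := by rw [hz2, orderOf_inv]; exact h1
      exact setup_invol_not_off h z this hz

end Count

section Main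

open scoped Classical

variable [Fintype G] [Fintype (IrrCharacter G)] {t s : G} {K : Subgroup G}
  [Fintype (IrrCharacter K)] {c : IrrCharacter K → IrrCharacter G → ℤ} {l₀ : IrrCharacter K}
  {δ ε e₁ e₂ : ℤ} {Δ Z₁ Z₂ : IrrCharacter G} {Θ : IrrCharacter K → IrrCharacter G}

theorem tK_ne (h : Setup t s K) : (⟨t, h.htK⟩ : K) ≠ 1 := by
  intro h1
  have h3 : t = 1 := congrArg Subtype.val h1
  have h2 := h.ht
  rw [h3, orderOf_one] at h2
  norm_num at h2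

theorem tau_sq (h : Setup t s K) (l : IrrCharacter K) :
    (l : K → ℂ) ⟨t, h.htK⟩ = 1 ∨ (l : K → ℂ) ⟨t, h.htK⟩ = -1 := by
  apply ab_sq (fun a b => Subtype.ext (h.hKab a a.2 b b.2))
  apply Subtype.ext
  show t * t = 1
  have := pow_orderOf_eq_one t
  rw [h.ht, pow_two] at this
  exact this

theorem offΘ_aux (hc : IndData K c)
    (hS : Shape c trivIrr trivIrr l₀ cbar δ ε e₁ e₂ Δ Z₁ Z₂ Θ)
    (l : IrrCharacter K) (hl : l ≠ trivIrr) (hl0 : l ≠ l₀) (z : G) (hz : Off K z) :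
    1 + (δ : ℂ) * (Δ : G → ℂ) z - (ε : ℂ) * (Θ l : G → ℂ) z = 0 := by
  have h1 := hc.vanish l z (Or.inr hz)
  rw [rowsum hS l hl hl0 (fun χ => (χ : G → ℂ) z), trivIrr_apply] at h1
  exact h1

theorem offZ_aux (hc : IndData K c)
    (hS : Shape c trivIrr trivIrr l₀ cbar δ ε e₁ e₂ Δ Z₁ Z₂ Θ) (z : G) (hz : Off K z) :
    1 + (δ : ℂ) * (Δ : G → ℂ) z + (e₁ : ℂ) * (Z₁ : G → ℂ) z + (e₂ : ℂ) * (Z₂ : G → ℂ) z = 0 := by
  have h1 := hc.vanish l₀ z (Or.inr hz)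
  rw [rowsum₀ hS (fun χ => (χ : G → ℂ) z), trivIrr_apply] at h1
  exact h1

theorem R_eq (h : Setup t s K) (hk : 4 ≤ Nat.card K) (hc : IndData K c)
    (hl₀ : l₀ ≠ trivIrr) (hl₀r : cbar l₀ = l₀)
    (hreal : ∀ l : IrrCharacter K, cbar l = l → l = trivIrr ∨ l = l₀)
    (hS : Shape c trivIrr trivIrr l₀ cbar δ ε e₁ e₂ Δ Z₁ Z₂ Θ)
    (hD : Degs t K l₀ δ ε e₁ e₂ Δ Z₁ Z₂ Θ) (z : G) (hz : Off K z)
    (l : IrrCharacter K) (hl : l ≠ trivIrr) :
    ∑ χ : IrrCharacter G, (c l χ : ℂ) * ((χ : G → ℂ) t * (χ : G → ℂ) z / (χ : G → ℂ) 1)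
      = 1 + (Δ : G → ℂ) z / (2 * (Nat.card K : ℂ) + δ)
        - (l : K → ℂ) ⟨t, h.htK⟩ * ((δ : ℂ) + (Δ : G → ℂ) z) / ((Nat.card K : ℂ) + δ) := by
  have hk4 : (4 : ℝ) ≤ (Nat.card K : ℝ) := by exact_mod_cast hk
  have vΔ : (Δ : G → ℂ) t = δ := valΔ h hc hS ⟨t, h.htK⟩ (tK_ne h)
  by_cases hl0 : l = l₀
  · subst hl0
    have vZ₁ : (Z₁ : G → ℂ) t = -(e₁ : ℂ) * (l : K → ℂ) ⟨t, h.htK⟩ :=
      valZ₁ hc hS ⟨t, h.htK⟩ (tK_ne h)
    have vZ₂ : (Z₂ : G → ℂ) t = -(e₂ : ℂ) * (l : K → ℂ) ⟨t, h.htK⟩ :=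
      valZ₂ hc hS ⟨t, h.htK⟩ (tK_ne h)
    have hoff := offZ_aux hc hS z hz
    rw [rowsum₀ hS, trivIrr_apply, trivIrr_apply, trivIrr_apply, vΔ, vZ₁, vZ₂, hD.degΔ,
      hD.degZ₁, hD.degZ₂]
    rw [hD.he₁, hD.he₂] at hoff ⊢
    rcases hS.hδ with rfl | rfl
    · have h1 : (2 * (Nat.card K : ℂ) + ((1 : ℤ) : ℂ)) ≠ 0 := by
        have : (2 * (Nat.card K : ℂ) + ((1 : ℤ) : ℂ)) = ((2 * (Nat.card K : ℝ) + 1 : ℝ) : ℂ) := by
          push_cast; ring
        rw [this]; exact_mod_cast (by linarith : (2 * (Nat.card K : ℝ) + 1 : ℝ) ≠ 0)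
      have h2 : ((Nat.card K : ℂ) + ((1 : ℤ) : ℂ)) ≠ 0 := by
        have : ((Nat.card K : ℂ) + ((1 : ℤ) : ℂ)) = (((Nat.card K : ℝ) + 1 : ℝ) : ℂ) := by
          push_cast; ring
        rw [this]; exact_mod_cast (by linarith : ((Nat.card K : ℝ) + 1 : ℝ) ≠ 0)
      push_cast at hoff h1 h2 ⊢
      field_simp
      linear_combination ((2 * (Nat.card K : ℂ) + 1)) * ((l : K → ℂ) ⟨t, h.htK⟩) * hoff
    · have h1 : (2 * (Nat.card K : ℂ) + ((-1 : ℤ) : ℂ)) ≠ 0 := by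
        have : (2 * (Nat.card K : ℂ) + ((-1 : ℤ) : ℂ)) = ((2 * (Nat.card K : ℝ) - 1 : ℝ) : ℂ) := by
          push_cast; ring
        rw [this]; exact_mod_cast (by linarith : (2 * (Nat.card K : ℝ) - 1 : ℝ) ≠ 0)
      have h2 : ((Nat.card K : ℂ) + ((-1 : ℤ) : ℂ)) ≠ 0 := by
        have : ((Nat.card K : ℂ) + ((-1 : ℤ) : ℂ)) = (((Nat.card K : ℝ) - 1 : ℝ) : ℂ) := by
          push_cast; ring
        rw [this]; exact_mod_cast (by linarith : ((Nat.card K : ℝ) - 1 : ℝ) ≠ 0)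
      push_cast at hoff h1 h2 ⊢
      field_simp
      linear_combination (-(2 * (Nat.card K : ℂ) - 1)) * ((l : K → ℂ) ⟨t, h.htK⟩) * hoff
  · have vΘ : (Θ l : G → ℂ) t = (ε : ℂ) * ((l : K → ℂ) ⟨t, h.htK⟩
        + conj ((l : K → ℂ) ⟨t, h.htK⟩)) :=
      valΘ hc hS hl₀ hl₀r hreal l hl hl0 ⟨t, h.htK⟩ (tK_ne h)
    have hτ := tau_sq h l
    have hcτ : conj ((l : K → ℂ) ⟨t, h.htK⟩) = (l : K → ℂ) ⟨t, h.htK⟩ := by
      rcases hτ with h1 | h1 <;> rw [h1] <;> simp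
    rw [hcτ] at vΘ
    have hoff := offΘ_aux hc hS l hl hl0 z hz
    rw [rowsum hS l hl hl0, trivIrr_apply, trivIrr_apply, trivIrr_apply, vΔ, vΘ, hD.degΔ,
      hD.degΘ l hl hl0]
    rw [hD.hε] at hoff ⊢
    rcases hS.hδ with rfl | rfl
    · have h1 : (2 * (Nat.card K : ℂ) + ((1 : ℤ) : ℂ)) ≠ 0 := by
        have : (2 * (Nat.card K : ℂ) + ((1 : ℤ) : ℂ)) = ((2 * (Nat.card K : ℝ) + 1 : ℝ) : ℂ) := by
          push_cast; ring
        rw [this]; exact_mod_cast (by linarith : (2 * (Nat.card K : ℝ) + 1 : ℝ) ≠ 0)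
      have h2 : ((Nat.card K : ℂ) + ((1 : ℤ) : ℂ)) ≠ 0 := by
        have : ((Nat.card K : ℂ) + ((1 : ℤ) : ℂ)) = (((Nat.card K : ℝ) + 1 : ℝ) : ℂ) := by
          push_cast; ring
        rw [this]; exact_mod_cast (by linarith : ((Nat.card K : ℝ) + 1 : ℝ) ≠ 0)
      have h3 : (2 * (Nat.card K : ℂ) + 2 * ((1 : ℤ) : ℂ)) ≠ 0 := by
        have : (2 * (Nat.card K : ℂ) + 2 * ((1 : ℤ) : ℂ)) = 2 * ((Nat.card K : ℂ) + ((1 : ℤ) : ℂ)) := by
          ring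
        rw [this]; exact mul_ne_zero two_ne_zero h2
      push_cast at hoff h1 h2 h3 ⊢
      field_simp
      linear_combination (2 * (2 * (Nat.card K : ℂ) + 1)) * ((l : K → ℂ) ⟨t, h.htK⟩) * hoff
    · have h1 : (2 * (Nat.card K : ℂ) + ((-1 : ℤ) : ℂ)) ≠ 0 := by
        have : (2 * (Nat.card K : ℂ) + ((-1 : ℤ) : ℂ)) = ((2 * (Nat.card K : ℝ) - 1 : ℝ) : ℂ) := by
          push_cast; ring
        rw [this]; exact_mod_cast (by linarith : (2 * (Nat.card K : ℝ) - 1 : ℝ) ≠ 0)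
      have h2 : ((Nat.card K : ℂ) + ((-1 : ℤ) : ℂ)) ≠ 0 := by
        have : ((Nat.card K : ℂ) + ((-1 : ℤ) : ℂ)) = (((Nat.card K : ℝ) - 1 : ℝ) : ℂ) := by
          push_cast; ring
        rw [this]; exact_mod_cast (by linarith : ((Nat.card K : ℝ) - 1 : ℝ) ≠ 0)
      have h3 : (2 * (Nat.card K : ℂ) + 2 * ((-1 : ℤ) : ℂ)) ≠ 0 := by
        have : (2 * (Nat.card K : ℂ) + 2 * ((-1 : ℤ) : ℂ)) = 2 * ((Nat.card K : ℂ) + ((-1 : ℤ) : ℂ)) := by
          ring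
        rw [this]; exact mul_ne_zero two_ne_zero h2
      push_cast at hoff h1 h2 h3 ⊢
      field_simp
      linear_combination (-2 * (2 * (Nat.card K : ℂ) - 1)) * ((l : K → ℂ) ⟨t, h.htK⟩) * hoff

end Main

section Final

open scoped Classical

variable [Fintype G] [Fintype (IrrCharacter G)] {t s : G} {K : Subgroup G}
  [Fintype (IrrCharacter K)] {c : IrrCharacter K → IrrCharacter G → ℤ} {l₀ : IrrCharacter K}
  {δ ε e₁ e₂ : ℤ} {Δ Z₁ Z₂ : IrrCharacter G} {Θ : IrrCharacter K → IrrCharacter G}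

theorem S_eq (h : Setup t s K) (hk : 4 ≤ Nat.card K) (hc : IndData K c)
    (hl₀ : l₀ ≠ trivIrr) (hl₀r : cbar l₀ = l₀)
    (hreal : ∀ l : IrrCharacter K, cbar l = l → l = trivIrr ∨ l = l₀)
    (hS : Shape c trivIrr trivIrr l₀ cbar δ ε e₁ e₂ Δ Z₁ Z₂ Θ)
    (hD : Degs t K l₀ δ ε e₁ e₂ Δ Z₁ Z₂ Θ) (z : G) (hz : Off K z) :
    ∑ χ : IrrCharacter G, (χ : G → ℂ) t * ((χ : G → ℂ) t * (χ : G → ℂ) z / (χ : G → ℂ) 1)
      = 1 + (Δ : G → ℂ) z / (2 * (Nat.card K : ℂ) + δ)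
        + ((Nat.card K : ℂ) - 1) * ((δ : ℂ) + (Δ : G → ℂ) z) / ((Nat.card K : ℂ) + δ) := by
  set A : ℂ := 1 + (Δ : G → ℂ) z / (2 * (Nat.card K : ℂ) + δ) with hA
  set B : ℂ := ((δ : ℂ) + (Δ : G → ℂ) z) / ((Nat.card K : ℂ) + δ) with hB
  have hf : ∀ χ : IrrCharacter G, (χ : G → ℂ) t =
      - ∑ l : IrrCharacter K, (c l χ : ℂ) * (l : K → ℂ) ⟨t, h.htK⟩ :=
    fun χ => hc.fourier χ ⟨t, h.htK⟩ (tK_ne h)
  have e1 : ∀ χ : IrrCharacter G,
      (χ : G → ℂ) t * ((χ : G → ℂ) t * (χ : G → ℂ) z / (χ : G → ℂ) 1) =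
      - ∑ l : IrrCharacter K, (l : K → ℂ) ⟨t, h.htK⟩ *
        ((c l χ : ℂ) * ((χ : G → ℂ) t * (χ : G → ℂ) z / (χ : G → ℂ) 1)) := by
    intro χ
    nth_rewrite 1 [hf χ]
    rw [neg_mul, Finset.sum_mul]
    congr 1
    refine Finset.sum_congr rfl fun l _ => ?_
    ring
  simp_rw [e1]
  rw [Finset.sum_neg_distrib, Finset.sum_comm]
  have e2 : ∀ l : IrrCharacter K,
      ∑ χ : IrrCharacter G, (l : K → ℂ) ⟨t, h.htK⟩ *
        ((c l χ : ℂ) * ((χ : G → ℂ) t * (χ : G → ℂ) z / (χ : G → ℂ) 1)) =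
      A * (l : K → ℂ) ⟨t, h.htK⟩ - B - (A - B) * ((if l = trivIrr then (1 : ℂ) else 0) * 1) := by
    intro l
    rw [← Finset.mul_sum]
    by_cases hl : l = trivIrr
    · rw [if_pos hl]
      have : ∀ χ : IrrCharacter G, (c l χ : ℂ) = 0 := by
        intro χ; rw [hl, hc.triv_row]; simp
      simp_rw [this]
      rw [hl, trivIrr_apply]
      simp
    · rw [if_neg hl, R_eq h hk hc hl₀ hl₀r hreal hS hD z hz l hl]
      have hτ := tau_sq h l
      have hτ2 : (l : K → ℂ) ⟨t, h.htK⟩ * (l : K → ℂ) ⟨t, h.htK⟩ = 1 := by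
        rcases hτ with h1 | h1 <;> rw [h1] <;> norm_num
      rw [← hA]
      have : (l : K → ℂ) ⟨t, h.htK⟩ * ((δ : ℂ) + (Δ : G → ℂ) z) / ((Nat.card K : ℂ) + δ)
          = (l : K → ℂ) ⟨t, h.htK⟩ * B := by rw [hB]; ring
      rw [this]
      linear_combination (-B) * hτ2
  simp_rw [e2]
  rw [Finset.sum_sub_distrib, Finset.sum_sub_distrib, ← Finset.mul_sum, ← Finset.mul_sum,
    sumK h ⟨t, h.htK⟩ (tK_ne h), sum_ite_mul', Finset.sum_const, Finset.card_univ,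
    ← Nat.card_eq_fintype_card, ab_card (fun a b => Subtype.ext (h.hKab a a.2 b b.2))]
  rw [nsmul_eq_mul]
  ring

end Final

section Thm

open scoped Classical

variable [Fintype G] [Fintype (IrrCharacter G)] {t s : G} {K : Subgroup G}
  [Fintype (IrrCharacter K)] {c : IrrCharacter K → IrrCharacter G → ℤ} {l₀ : IrrCharacter K}
  {δ ε e₁ e₂ : ℤ} {Δ Z₁ Z₂ : IrrCharacter G} {Θ : IrrCharacter K → IrrCharacter G}

theorem inv_formula (h : Setup t s K) (hk : 4 ≤ Nat.card K) (hc : IndData K c)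
    (hl₀ : l₀ ≠ trivIrr) (hl₀r : cbar l₀ = l₀)
    (hreal : ∀ l : IrrCharacter K, cbar l = l → l = trivIrr ∨ l = l₀)
    (hS : Shape c trivIrr trivIrr l₀ cbar δ ε e₁ e₂ Δ Z₁ Z₂ Θ)
    (hD : Degs t K l₀ δ ε e₁ e₂ Δ Z₁ Z₂ Θ) (z : G) (hz : Off K z) :
    2 * (Nat.card K : ℂ) * (invCount z : ℂ) =
      ((2 * (Nat.card K : ℂ) + δ) * ((Nat.card K : ℂ) + δ)) *
      (1 + (Δ : G → ℂ) z / (2 * (Nat.card K : ℂ) + δ)
        + ((Nat.card K : ℂ) - 1) * ((δ : ℂ) + (Δ : G → ℂ) z) / ((Nat.card K : ℂ) + δ)) := by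
  have hcc := setup_card_cent h
  have hGn : Nat.card G = Nat.card (Subgroup.centralizer ({t} : Set G)) *
      (Subgroup.centralizer ({t} : Set G)).index := (Subgroup.card_mul_index _).symm
  have hidx : ((Subgroup.centralizer ({t} : Set G)).index : ℂ) =
      (2 * (Nat.card K : ℂ) + δ) * ((Nat.card K : ℂ) + δ) := by
    have := hD.index
    have h2 : (((Subgroup.centralizer ({t} : Set G)).index : ℤ) : ℂ) =
        (((2 * (Nat.card K : ℤ) + δ) * ((Nat.card K : ℤ) + δ) : ℤ) : ℂ) := by rw [this]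
    push_cast at h2
    exact h2
  have hn0 : ((Subgroup.centralizer ({t} : Set G)).index : ℂ) ≠ 0 := by
    have : (Subgroup.centralizer ({t} : Set G)).index ≠ 0 := Subgroup.index_ne_zero_of_finite
    exact_mod_cast this
  have hcl := Cfsg.Agent.Lib.Helper82.class_constant t t z
  rw [pairs_eq_invCount h z hz] at hcl
  have e : ∑ χ : IrrCharacter G,
      (((Subgroup.centralizer ({t} : Set G)).index : ℂ) * (χ : G → ℂ) t)
        * (((Subgroup.centralizer ({t} : Set G)).index : ℂ) * (χ : G → ℂ) t)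
        * (χ : G → ℂ) z / (χ : G → ℂ) 1 =
      ((Subgroup.centralizer ({t} : Set G)).index : ℂ) ^ 2 *
        ∑ χ : IrrCharacter G, (χ : G → ℂ) t * ((χ : G → ℂ) t * (χ : G → ℂ) z / (χ : G → ℂ) 1) := by
    rw [Finset.mul_sum]
    refine Finset.sum_congr rfl fun χ _ => ?_
    ring
  rw [e, S_eq h hk hc hl₀ hl₀r hreal hS hD z hz] at hcl
  have hG : (Nat.card G : ℂ) = 2 * (Nat.card K : ℂ) *
      ((Subgroup.centralizer ({t} : Set G)).index : ℂ) := by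
    rw [hGn, hcc]; push_cast; ring
  rw [hG] at hcl
  have h3 : ((Subgroup.centralizer ({t} : Set G)).index : ℂ) *
      (2 * (Nat.card K : ℂ) * (invCount z : ℂ)) =
      ((Subgroup.centralizer ({t} : Set G)).index : ℂ) *
      (((Subgroup.centralizer ({t} : Set G)).index : ℂ) *
      (1 + (Δ : G → ℂ) z / (2 * (Nat.card K : ℂ) + δ)
        + ((Nat.card K : ℂ) - 1) * ((δ : ℂ) + (Δ : G → ℂ) z) / ((Nat.card K : ℂ) + δ))) := by
    linear_combination hcl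
  have h4 := mul_left_cancel₀ hn0 h3
  rw [h4, hidx]

end Thm

end Cfsg.Agent.Lib.Helper46.BSWVala

namespace Cfsg.Agent.Lib.Helper46.BSW

open Cfsg Cfsg.Agent.Lib.Helper4 Cfsg.Agent.Lib.Helper46.BSWVala
open scoped ComplexConjugate

universe u

variable {G : Type u} [Group G]

/-- Piece VALA. -/
theorem stage1a_of_degs [Fintype G] [Fintype (IrrCharacter G)] {t s : G} {K : Subgroup G}
    (h : Setup t s K) [Fintype (IrrCharacter K)] (hk : 4 ≤ Nat.card K)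
    (c : IrrCharacter K → IrrCharacter G → ℤ)
    (hc : IndData K c) (l₀ : IrrCharacter K) (hl₀ : l₀ ≠ trivIrr) (hl₀r : cbar l₀ = l₀)
    (hreal : ∀ l : IrrCharacter K, cbar l = l → l = trivIrr ∨ l = l₀)
    (δ ε e₁ e₂ : ℤ) (Δ Z₁ Z₂ : IrrCharacter G) (Θ : IrrCharacter K → IrrCharacter G)
    (hS : Shape c trivIrr trivIrr l₀ cbar δ ε e₁ e₂ Δ Z₁ Z₂ Θ)
    (hD : Degs t K l₀ δ ε e₁ e₂ Δ Z₁ Z₂ Θ) :
    Stage1a K δ Δ ∧ (δ = -1 → KSeries K Δ Z₁ Z₂ l₀ Θ) := by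
  classical
  have hk4 : (4 : ℝ) ≤ (Nat.card K : ℝ) := by exact_mod_cast hk
  have hcc := setup_card_cent h
  have hGn : Nat.card G = Nat.card (Subgroup.centralizer ({t} : Set G)) *
      (Subgroup.centralizer ({t} : Set G)).index := (Subgroup.card_mul_index _).symm
  have hGZ : (Nat.card G : ℤ) = 2 * (Nat.card K : ℤ) *
      ((2 * (Nat.card K : ℤ) + δ) * ((Nat.card K : ℤ) + δ)) := by
    rw [hGn, hcc]; push_cast; rw [hD.index]
  have hk0 : (2 * (Nat.card K : ℂ)) ≠ 0 := by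
    have : (2 * (Nat.card K : ℂ)) = ((2 * (Nat.card K : ℝ) : ℝ) : ℂ) := by push_cast; ring
    rw [this]; exact_mod_cast (by linarith : (2 * (Nat.card K : ℝ) : ℝ) ≠ 0)
  refine ⟨⟨hS.hδ, ?_, hGZ, hD.degΔ, ?_, ?_, ?_⟩, ?_⟩
  · rw [hGZ]
    rcases hS.hδ with rfl | rfl <;> ring
  · intro x hx hx1
    exact valΔ h hc hS ⟨x, hx⟩ (fun h1 => hx1 (congrArg Subtype.val h1))
  · intro hδ z hz
    subst hδ
    have hf := inv_formula h hk hc hl₀ hl₀r hreal hS hD z hz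
    have h1 : (2 * (Nat.card K : ℂ) + ((1 : ℤ) : ℂ)) ≠ 0 := by
      have : (2 * (Nat.card K : ℂ) + ((1 : ℤ) : ℂ)) = ((2 * (Nat.card K : ℝ) + 1 : ℝ) : ℂ) := by
        push_cast; ring
      rw [this]; exact_mod_cast (by linarith : (2 * (Nat.card K : ℝ) + 1 : ℝ) ≠ 0)
    have h2 : ((Nat.card K : ℂ) + ((1 : ℤ) : ℂ)) ≠ 0 := by
      have : ((Nat.card K : ℂ) + ((1 : ℤ) : ℂ)) = (((Nat.card K : ℝ) + 1 : ℝ) : ℂ) := by
        push_cast; ring
      rw [this]; exact_mod_cast (by linarith : ((Nat.card K : ℝ) + 1 : ℝ) ≠ 0)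
    apply mul_left_cancel₀ hk0
    rw [hf]
    push_cast at h1 h2 ⊢
    field_simp
    ring
  · intro hδ z hz
    subst hδ
    have hf := inv_formula h hk hc hl₀ hl₀r hreal hS hD z hz
    have h1 : (2 * (Nat.card K : ℂ) + ((-1 : ℤ) : ℂ)) ≠ 0 := by
      have : (2 * (Nat.card K : ℂ) + ((-1 : ℤ) : ℂ)) = ((2 * (Nat.card K : ℝ) - 1 : ℝ) : ℂ) := by
        push_cast; ring
      rw [this]; exact_mod_cast (by linarith : (2 * (Nat.card K : ℝ) - 1 : ℝ) ≠ 0)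
    have h2 : ((Nat.card K : ℂ) + ((-1 : ℤ) : ℂ)) ≠ 0 := by
      have : ((Nat.card K : ℂ) + ((-1 : ℤ) : ℂ)) = (((Nat.card K : ℝ) - 1 : ℝ) : ℂ) := by
        push_cast; ring
      rw [this]; exact_mod_cast (by linarith : ((Nat.card K : ℝ) - 1 : ℝ) ≠ 0)
    apply mul_left_cancel₀ hk0
    rw [hf]
    push_cast at h1 h2 ⊢
    field_simp
    ring
  · intro hδ
    subst hδ
    refine ⟨hl₀, hl₀r, hreal, hS.hΔ, hS.hZ₁, hS.hZ₂, hS.hΘ, hS.hΘeq, ?_, ?_, ?_, ?_, ?_⟩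
    · intro l hl hl0
      rw [hD.degΘ l hl hl0]; push_cast; ring
    · rw [hD.degZ₁]; push_cast; ring
    · rw [hD.degZ₂]; push_cast; ring
    · intro l hl hl0 z hz
      have := offΘ_aux hc hS l hl hl0 z hz
      rw [hD.hε] at this
      push_cast at this
      linear_combination this
    · intro z hz
      have := offZ_aux hc hS z hz
      rw [hD.he₁, hD.he₂] at this
      push_cast at this
      linear_combination this

end Cfsg.Agent.Lib.Helper46.BSW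

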