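import Mathlib
import Cfsg.Agent.Lib.Helper10.BT0

/-! S4700 piece BT-A4 `arith_II` (helper46): pure arithmetic. -/

set_option autoImplicit false

namespace Cfsg.Agent.Lib.Helper10.BT

/-- `(n + 1) ∣ (1 + n p) p` implies `(n + 1) ∣ p (p - 1)`. -/
theorem bta4_dvd (p n : ℕ) (hp1 : 1 ≤ p) (hdvd : (n + 1) ∣ (1 + n * p) * p) :
    (n + 1) ∣ p * (p - 1) := by
  obtain ⟨q, rfl⟩ : ∃ q, p = q + 1 := ⟨p - 1, by omega⟩
  have h : (1 + n * (q + 1)) * (q + 1) + (q + 1) * (q + 1 - 1) = (n + 1) * ((q + 1) * (q + 1)) := by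
    rw [Nat.add_sub_cancel]
    ring
  have h' : n + 1 ∣ (1 + n * (q + 1)) * (q + 1) + (q + 1) * (q + 1 - 1) := by
    rw [h]
    exact Dvd.intro _ rfl
  exact (Nat.dvd_add_right hdvd).mp h'

/-- BT-A4 -/
theorem arith_II (p e t n a b x₀ : ℕ) (hp : p.Prime) (he2 : 2 ≤ e) (het : e * t = p - 1)
    (hn : 1 ≤ n) (hab : a + b = e - 1) (hmod : (x₀ : ℤ) ≡ -(e : ℤ) [ZMOD p])
    (h1 : t * x₀ = 1 + n * p) (h2 : b * (p - 1) = 1 + a * (1 + n * p) + x₀)
    (hdvd : (n + 1) ∣ (1 + n * p) * p) : n + 1 = t := by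
  have hp2 := hp.two_le
  have ht0 : 0 < t := by
    rcases Nat.eq_zero_or_pos t with h | h
    · subst h
      omega
    · exact h
  have hp0 : (p : ℤ) ≠ 0 := by
    have : p ≠ 0 := by omega
    exact_mod_cast this
  have hp1 : ((p - 1 : ℕ) : ℤ) = (p : ℤ) - 1 := by
    have : 1 ≤ p := by omega
    push_cast [this]
    ring
  have het' : (e : ℤ) * t = (p : ℤ) - 1 := by
    rw [← hp1]
    exact_mod_cast het
  have hab' : (a : ℤ) + b = (e : ℤ) - 1 := by
    have h1 : 1 ≤ e := by omega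
    have h2 : ((e - 1 : ℕ) : ℤ) = (e : ℤ) - 1 := by
      push_cast [h1]
      ring
    rw [← h2]
    exact_mod_cast hab
  have h1' : (t : ℤ) * x₀ = 1 + (n : ℤ) * p := by exact_mod_cast h1
  have h2' : (b : ℤ) * ((p : ℤ) - 1) = 1 + (a : ℤ) * (1 + (n : ℤ) * p) + x₀ := by
    rw [← hp1]
    exact_mod_cast h2
  have hdvdp : (p : ℤ) ∣ ((x₀ + e : ℕ) : ℤ) := by
    have h := Int.modEq_iff_dvd.mp hmod
    rw [← dvd_neg] at h
    have h' : -(-(e : ℤ) - (x₀ : ℤ)) = ((x₀ + e : ℕ) : ℤ) := by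
      push_cast
      ring
    rw [h'] at h
    exact h
  obtain ⟨y, hy⟩ := Int.natCast_dvd_natCast.mp hdvdp
  have hk' : (x₀ : ℤ) + e = (p : ℤ) * y := by exact_mod_cast hy
  have h3 : (p : ℤ) * ((t : ℤ) * y - (n + 1)) = 0 := by
    linear_combination (-(t : ℤ)) * hk' + h1' + het'
  have hty : t * y = n + 1 := by
    have h : (t : ℤ) * y - (n + 1) = 0 := by
      rcases mul_eq_zero.mp h3 with h | h
      · exact absurd h hp0
      · exact h
    have : ((t * y : ℕ) : ℤ) = ((n + 1 : ℕ) : ℤ) := by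
      push_cast
      linarith
    exact_mod_cast this
  have h4 : (p : ℤ) * ((a : ℤ) * (n + 1) + y - (e - 1)) = 0 := by
    linear_combination (-1 : ℤ) * h2' + ((p : ℤ) - 1) * hab' - hk'
  have hye : a * (n + 1) + y + 1 = e := by
    have h : (a : ℤ) * (n + 1) + y - (e - 1) = 0 := by
      rcases mul_eq_zero.mp h4 with h | h
      · exact absurd h hp0
      · exact h
    have : ((a * (n + 1) + y + 1 : ℕ) : ℤ) = (e : ℤ) := by
      push_cast
      linarith
    exact_mod_cast this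
  have hy0 : 0 < y := by
    rcases Nat.eq_zero_or_pos y with h | h
    · subst h
      omega
    · exact h
  have htp : t < p := by
    have : t ≤ e * t := Nat.le_mul_of_pos_left t (by omega)
    omega
  have hyp : y < p := by
    have : e ≤ e * t := Nat.le_mul_of_pos_right e ht0
    omega
  have hcop : Nat.Coprime (n + 1) p := by
    rw [Nat.coprime_comm]
    apply (Nat.Prime.coprime_iff_not_dvd hp).mpr
    intro h
    rw [← hty] at h
    rcases (Nat.Prime.dvd_mul hp).mp h with h | h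
    · have := Nat.le_of_dvd ht0 h
      omega
    · have := Nat.le_of_dvd hy0 h
      omega
  have h5 : n + 1 ∣ p - 1 :=
    hcop.dvd_of_dvd_mul_left (bta4_dvd p n (by omega) hdvd)
  have h6 : y ∣ e := by
    rw [← hty, ← het, mul_comm e t] at h5
    exact Nat.dvd_of_mul_dvd_mul_left ht0 h5
  have h7 : y ∣ a * (n + 1) + y := by
    rw [← hty]
    exact ⟨a * t + 1, by ring⟩
  have h8 : y ∣ 1 := by
    rw [← hye] at h6
    exact (Nat.dvd_add_right h7).mp h6
  have h9 : y = 1 := Nat.dvd_one.mp h8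
  rw [← hty, h9, mul_one]

end Cfsg.Agent.Lib.Helper10.BT
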