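import Mathlib
import Cfsg.Agent.Lib.Helper10.BT0
import Cfsg.Agent.Lib.Helper46.BTA4

/-! S4700 piece BT-A5 `arith_I1` (helper46): pure arithmetic. -/

set_option autoImplicit false

namespace Cfsg.Agent.Lib.Helper10.BT

/-- BT-A5 -/
theorem arith_I1 (p e n a : ℕ) (hp : p.Prime) (he2 : 2 ≤ e) (het : e * 1 = p - 1)
    (hn : 1 ≤ n) (h1 : a * (n + 1) + 1 = e) (hdvd : (n + 1) ∣ (1 + n * p) * p) : False := by
  have hp2 := hp.two_le
  have ha : 1 ≤ a := by
    rcases Nat.eq_zero_or_pos a with h | h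
    · subst h
      omega
    · exact h
  have hle : n + 1 ≤ a * (n + 1) := Nat.le_mul_of_pos_left (n + 1) ha
  have hcop : Nat.Coprime (n + 1) p := by
    rw [Nat.coprime_comm]
    apply (Nat.Prime.coprime_iff_not_dvd hp).mpr
    intro h
    have := Nat.le_of_dvd (by omega) h
    omega
  have h5 : n + 1 ∣ p - 1 :=
    hcop.dvd_of_dvd_mul_left (bta4_dvd p n (by omega) hdvd)
  have h6 : n + 1 ∣ a * (n + 1) + 1 := by
    rw [h1]
    have : e = p - 1 := by omega
    rw [this]
    exact h5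
  have h7 : n + 1 ∣ 1 := (Nat.dvd_add_right (Dvd.intro_left a rfl)).mp h6
  have := Nat.dvd_one.mp h7
  omega

end Cfsg.Agent.Lib.Helper10.BT
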