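import Mathlib
import Cfsg.Agent.Lib.Helper10.BT0

/-! S4700 piece BT-R4 `III_mul` (helper46): pure arithmetic. -/

set_option autoImplicit false

namespace Cfsg.Agent.Lib.Helper10.BT

/-- BT-R4 -/
theorem III_mul (p nbar n k : ℕ) (hp : 0 < p) (h : III nbar p)
    (hn : 1 + n * p = (1 + nbar * p) * (1 + k * p)) : III n p := by
  obtain ⟨hb, u, hhb, hu, he⟩ := h
  refine ⟨hb + k * (hb * p + u + 1), u, by omega, hu, ?_⟩
  have key : p * (n * (u + 1)) + (u + 1) =
      p * ((hb + k * (hb * p + u + 1)) * u * p + u ^ 2 + u + (hb + k * (hb * p + u + 1))) +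
        (u + 1) := by
    calc p * (n * (u + 1)) + (u + 1) = (1 + n * p) * (u + 1) := by ring
      _ = (1 + nbar * p) * (1 + k * p) * (u + 1) := by rw [hn]
      _ = ((u + 1) + p * (nbar * (u + 1))) * (1 + k * p) := by ring
      _ = ((u + 1) + p * (hb * u * p + u ^ 2 + u + hb)) * (1 + k * p) := by rw [he]
      _ = _ := by ring
  exact Nat.eq_of_mul_eq_mul_left hp (Nat.add_right_cancel key)

end Cfsg.Agent.Lib.Helper10.BT
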