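import Mathlib
import Cfsg.Agent.Lib.Helper10.BT0

/-! S4700 piece BT-R5 `commutator_quot` (helper46). -/

set_option autoImplicit false

namespace Cfsg.Agent.Lib.Helper10.BT

/-- BT-R5 -/
theorem commutator_quot {G : Type*} [Group G] (K : Subgroup G) [K.Normal]
    (h : commutator G = ⊤) : commutator (G ⧸ K) = ⊤ := by
  have hs : Function.Surjective (QuotientGroup.mk' K) := QuotientGroup.mk'_surjective K
  have htop : Subgroup.map (QuotientGroup.mk' K) ⊤ = ⊤ := Subgroup.map_top_of_surjective _ hs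
  rw [commutator_def] at h ⊢
  calc ⁅(⊤ : Subgroup (G ⧸ K)), ⊤⁆
      = ⁅Subgroup.map (QuotientGroup.mk' K) ⊤, Subgroup.map (QuotientGroup.mk' K) ⊤⁆ := by
        rw [htop]
    _ = Subgroup.map (QuotientGroup.mk' K) ⁅(⊤ : Subgroup G), ⊤⁆ :=
        (Subgroup.map_commutator _ _ _).symm
    _ = ⊤ := by rw [h, htop]

end Cfsg.Agent.Lib.Helper10.BT
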