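import Mathlib
import Cfsg.Agent.Lib.Helper10.BT0
import Cfsg.Agent.Lib.Helper83.Ortho

/-!
# S4700 piece BT-T1 `sumsq` (helper46, for helper10)
-/

set_option autoImplicit false

namespace Cfsg.Agent.Lib.Helper10.BT

open Cfsg
open Cfsg.Agent.Lib.Helper83 (trivIrr)
open scoped ComplexConjugate

/-- the numeric identity in configuration (I) -/
theorem btt1_nat_I (p e t n a b x₀ : ℕ) (hp1 : 1 ≤ p) (het : e * t = p - 1) (hx : x₀ = e)
    (hb : b = a * n) (he : a * (n + 1) + 1 = e) :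
    1 + a * (1 + n * p) ^ 2 + b * (p - 1) ^ 2 + t * x₀ ^ 2 + n * p ^ 2 =
      (1 + n * p) * (e * p) := by
  have hpe : p = e * t + 1 := by omega
  rw [← het]
  subst hx
  subst hb
  subst hpe
  rw [← he]
  ring

/-- the numeric identity in configuration (II) -/
theorem btt1_nat_II (p e t n a b x₀ : ℕ) (hp : p.Prime) (he2 : 2 ≤ e) (het : e * t = p - 1)
    (hab : a + b = e - 1) (hmod : (x₀ : ℤ) ≡ -(e : ℤ) [ZMOD p])
    (h1 : t * x₀ = 1 + n * p) (h2 : b * (p - 1) = 1 + a * (1 + n * p) + x₀) :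
    1 + a * (1 + n * p) ^ 2 + b * (p - 1) ^ 2 + t * x₀ ^ 2 + n * p ^ 2 =
      (1 + n * p) * (e * p) := by
  have hp2 := hp.two_le
  have hp0 : (p : ℤ) ≠ 0 := by
    have : p ≠ 0 := by omega
    exact_mod_cast this
  have hp1 : ((p - 1 : ℕ) : ℤ) = (p : ℤ) - 1 := by
    have : 1 ≤ p := by omega
    push_cast [this]
    ring
  have het' : (e : ℤ) * t = (p : ℤ) - 1 := by
    rw [← hp1]
    exact_mod_cast het
  have hab' : (a : ℤ) + b = (e : ℤ) - 1 := by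
    have h1 : 1 ≤ e := by omega
    have h2 : ((e - 1 : ℕ) : ℤ) = (e : ℤ) - 1 := by
      push_cast [h1]
      ring
    rw [← h2]
    exact_mod_cast hab
  have h1' : (t : ℤ) * x₀ = 1 + (n : ℤ) * p := by exact_mod_cast h1
  have h2' : (b : ℤ) * ((p : ℤ) - 1) = 1 + (a : ℤ) * (1 + (n : ℤ) * p) + x₀ := by
    rw [← hp1]
    exact_mod_cast h2
  have hdvdp : (p : ℤ) ∣ ((x₀ + e : ℕ) : ℤ) := by
    have h := Int.modEq_iff_dvd.mp hmod
    rw [← dvd_neg] at h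
    have h' : -(-(e : ℤ) - (x₀ : ℤ)) = ((x₀ + e : ℕ) : ℤ) := by
      push_cast
      ring
    rw [h'] at h
    exact h
  obtain ⟨y, hy⟩ := Int.natCast_dvd_natCast.mp hdvdp
  have hk' : (x₀ : ℤ) + e = (p : ℤ) * y := by exact_mod_cast hy
  have h3 : (p : ℤ) * ((t : ℤ) * y - (n + 1)) = 0 := by
    linear_combination (-(t : ℤ)) * hk' + h1' + het'
  have hty : (t : ℤ) * y - (n + 1) = 0 := by
    rcases mul_eq_zero.mp h3 with h | h
    · exact absurd h hp0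
    · exact h
  have h4 : (p : ℤ) * ((a : ℤ) * (n + 1) + y - (e - 1)) = 0 := by
    linear_combination (-1 : ℤ) * h2' + ((p : ℤ) - 1) * hab' - hk'
  have hye : (a : ℤ) * (n + 1) + y - (e - 1) = 0 := by
    rcases mul_eq_zero.mp h4 with h | h
    · exact absurd h hp0
    · exact h
  have hz : (1 : ℤ) + a * (1 + n * p) ^ 2 + b * ((p : ℤ) - 1) ^ 2 + t * (x₀ : ℤ) ^ 2 +
      n * (p : ℤ) ^ 2 = (1 + n * p) * (e * p) := by
    have hx' : (x₀ : ℤ) = (y : ℤ) * p - e := by linarith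
    have hb' : (b : ℤ) = (e : ℤ) - 1 - a := by linarith
    have hp' : (p : ℤ) = (e : ℤ) * t + 1 := by linarith
    have hn' : (n : ℤ) = (y : ℤ) * t - 1 := by linarith
    have he' : (e : ℤ) = (a : ℤ) * ((y : ℤ) * t) + y + 1 := by
      have : (a : ℤ) * ((n : ℤ) + 1) + y + 1 = e := by linarith
      rw [hn'] at this
      linarith
    rw [hx', hb', hp', hn', he']
    ring
  rw [← hp1] at hz
  exact_mod_cast hz

section T

variable {G : Type*} [Group G] [Fintype G] {p e t n : ℕ} {P : Subgroup G} {ε : ℤ} {x₀ : ℕ}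
  {A B Y D : Finset (IrrCharacter G)}

/-- BT-T1 -/
theorem sumsq (h : GTab G p e t n P ε x₀ A B Y D)
    (hcfg : (ε = 1 ∧ x₀ = e ∧ B.card = A.card * n ∧ A.card * (n + 1) + 1 = e) ∨
      (ε = -1 ∧ t * x₀ = 1 + n * p ∧ B.card * (p - 1) = 1 + A.card * (1 + n * p) + x₀)) :
    ∑ ψ ∈ D, (ψ : G → ℂ) 1 * (ψ : G → ℂ) 1 = ((n * p ^ 2 : ℕ) : ℂ) := by
  classical
  letI : Fintype (IrrCharacter G) := Fintype.ofFinite _
  have hsum := Cfsg.Agent.Lib.Helper83.sum_degree_sq (G := G)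
  rw [h.sum_split (fun ψ : IrrCharacter G => ((ψ : G → ℂ) 1) ^ 2)] at hsum
  have hA : ∑ ψ ∈ A, ((ψ : G → ℂ) 1) ^ 2 = (A.card : ℂ) * ((1 + n * p : ℕ) : ℂ) ^ 2 := by
    rw [Finset.sum_congr rfl (fun ψ hψ => by rw [h.degA ψ hψ]), Finset.sum_const, nsmul_eq_mul]
  have hB : ∑ ψ ∈ B, ((ψ : G → ℂ) 1) ^ 2 = (B.card : ℂ) * ((p - 1 : ℕ) : ℂ) ^ 2 := by
    rw [Finset.sum_congr rfl (fun ψ hψ => by rw [h.degB ψ hψ]), Finset.sum_const, nsmul_eq_mul]
  have hY : ∑ ψ ∈ Y, ((ψ : G → ℂ) 1) ^ 2 = (t : ℂ) * (x₀ : ℂ) ^ 2 := by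
    rw [Finset.sum_congr rfl (fun ψ hψ => by rw [h.degY ψ hψ]), Finset.sum_const, nsmul_eq_mul,
      h.cardY]
  rw [hA, hB, hY, Cfsg.Agent.Lib.Helper83.trivIrr_apply, h.cardG] at hsum
  have hp2 := h.hp.two_le
  have hnat : 1 + A.card * (1 + n * p) ^ 2 + B.card * (p - 1) ^ 2 + t * x₀ ^ 2 + n * p ^ 2 =
      (1 + n * p) * (e * p) := by
    rcases hcfg with ⟨_, hx, hb, he⟩ | ⟨hε, h1, h2⟩
    · exact btt1_nat_I p e t n A.card B.card x₀ (by omega) h.het hx hb he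
    · have hmod := h.modY
      rw [hε] at hmod
      have hmod' : (x₀ : ℤ) ≡ -(e : ℤ) [ZMOD p] := by
        have : (-1 : ℤ) * (e : ℤ) = -(e : ℤ) := by ring
        rw [this] at hmod
        exact hmod
      exact btt1_nat_II p e t n A.card B.card x₀ h.hp h.he h.het h.cardAB hmod' h1 h2
  have hnatC : (1 : ℂ) + (A.card : ℂ) * ((1 + n * p : ℕ) : ℂ) ^ 2 +
      (B.card : ℂ) * ((p - 1 : ℕ) : ℂ) ^ 2 + (t : ℂ) * (x₀ : ℂ) ^ 2 + ((n * p ^ 2 : ℕ) : ℂ) =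
      (((1 + n * p) * (e * p) : ℕ) : ℂ) := by
    exact_mod_cast hnat
  have hfin : ∑ ψ ∈ D, ((ψ : G → ℂ) 1) ^ 2 = ((n * p ^ 2 : ℕ) : ℂ) := by
    linear_combination hsum - hnatC
  rw [← hfin]
  exact Finset.sum_congr rfl (fun ψ _ => (pow_two _).symm)

end T

end Cfsg.Agent.Lib.Helper10.BT
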