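import Mathlib
import Cfsg.Agent.Lib.Helper10.BT0

/-!
# S4700 piece BT-T4 `tab_of_gtab` (helper46, for helper10)
-/

set_option autoImplicit false

namespace Cfsg.Agent.Lib.Helper10.BT

open Cfsg
open Cfsg.Agent.Lib.Helper83 (trivIrr)
open Cfsg.Agent.Lib.Helper10.BR (psum DOut Tab)
open scoped ComplexConjugate

/-- `1 + n p = t (p - e)` when `n + 1 = t` and `e t = p - 1`. -/
theorem btt4_W (p e t n : ℕ) (hp1 : 1 ≤ p) (het : e * t = p - 1) (hnt : n + 1 = t) :
    1 + n * p = t * (p - e) := by
  have hpe : p = e * t + 1 := by omega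
  subst hnt
  subst hpe
  have h1 : e * (n + 1) + 1 - e = e * n + 1 := by
    have : e * (n + 1) = e * n + e := by ring
    omega
  rw [h1]
  ring

section T

variable {G : Type*} [Group G] [Fintype G] {p e t n : ℕ} {P : Subgroup G} {ε : ℤ} {x₀ : ℕ}
  {A B Y D : Finset (IrrCharacter G)}

/-- BT-T4 -/
theorem tab_of_gtab (h : GTab G p e t n P ε x₀ A B Y D) (hnt : n + 1 = t) (ht3 : 3 ≤ t)
    (hB : 1 ≤ B.card) : Tab G p e t P ε x₀ A B Y D := by
  have hp2 := h.hp.two_le
  have het := h.het
  have he := h.he
  have hW : 1 + n * p = t * (p - e) := btt4_W p e t n (by omega) het hnt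
  have h6 : 6 ≤ e * t := by
    calc 6 = 2 * 3 := rfl
      _ ≤ e * t := Nat.mul_le_mul he ht3
  refine
    { hp := h.hp
      hp5 := by omega
      he := h.he
      ht := ht3
      het := h.het
      cardP := h.cardP
      cent := h.cent
      cardN := h.cardN
      cardG := ?_
      part := h.part
      triv_nmem := h.triv_nmem
      disj := h.disj
      degA := ?_
      valA := h.valA
      degB := h.degB
      valB := h.valB
      cardAB := h.cardAB
      posB := hB
      cardY := h.cardY
      degY := h.degY
      x₀_ge := h.x₀_ge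
      regY := h.regY
      t1 := h.t1
      hε := h.hε
      modY := h.modY
      degD := h.degD
      valD := h.valD }
  · rw [h.cardG, hW, ← het]
    ring
  · intro χ hχ
    rw [h.degA χ hχ, hW]

end T

end Cfsg.Agent.Lib.Helper10.BT
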