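import Mathlib
import Cfsg.Agent.Lib.Helper80.CTDefs

/-!
# S5748 piece FIXA (helper46, for helper80)
-/

set_option autoImplicit false

namespace Cfsg.Agent.Lib.Helper46.CTFIXA

open Cfsg.Agent.Lib.Helper80.CT

variable {G : Type*} [Group G] [Finite G]

variable {A N : Subgroup G} {q : ℕ}

/-- piece FIXA -/
theorem fix_A (hD : Data G A N q)
    (hall : ∀ v : G, orderOf v = 2 → v ∉ N →
      Dsub N v ⊓ A = ⊥ ∧ Nat.card (Dsub N v) = q - 1 ∧ ∀ d ∈ Dsub N v, v * d * v⁻¹ = d⁻¹)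
    (hcov : ∀ h ∈ N, h ∉ A → ∃ u : G, orderOf u = 2 ∧ u ∉ N ∧ h ∈ Dsub N u)
    (hcent : ∀ u : G, orderOf u = 2 → u ∉ N → ∀ h ∈ Dsub N u, h ≠ 1 →
      ∀ y : G, Commute y h → y ∈ Dsub N u) :
    ∀ x ∈ A, x ≠ 1 → ∀ g : G, g⁻¹ * x * g ∈ N → g ∈ N := by
  intro x hx hx1 g hg
  by_contra hgN
  have hginv : g⁻¹ ∉ N := fun h => hgN (by simpa using N.inv_mem h)
  have hy1 : g⁻¹ * x * g ≠ 1 := by
    intro h
    apply hx1
    have h2 : x = g * (g⁻¹ * x * g) * g⁻¹ := by group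
    rw [h2, h]
    group
  by_cases hyA : g⁻¹ * x * g ∈ A
  · have h3 : g⁻¹ * x * g⁻¹⁻¹ ∈ A := by rw [inv_inv]; exact hyA
    exact hx1 (hD.ti hginv hx h3)
  · obtain ⟨u, hu, huN, hyu⟩ := hcov _ hg hyA
    obtain ⟨t, htA, ht⟩ := hD.exists_invol
    have hc : t * x = x * t := hD.comm t htA x hx
    have hc' : Commute (g⁻¹ * t * g) (g⁻¹ * x * g) := by
      show (g⁻¹ * t * g) * (g⁻¹ * x * g) = (g⁻¹ * x * g) * (g⁻¹ * t * g)
      calc (g⁻¹ * t * g) * (g⁻¹ * x * g) = g⁻¹ * (t * x) * g := by group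
        _ = g⁻¹ * (x * t) * g := by rw [hc]
        _ = (g⁻¹ * x * g) * (g⁻¹ * t * g) := by group
    have ht'D := hcent u hu huN _ hyu hy1 _ hc'
    have ht'N : g⁻¹ * t * g ∈ N := ((mem_Dsub N u _).mp ht'D).1
    have ht'o : orderOf (g⁻¹ * t * g) = 2 := by
      have h4 := MulEquiv.orderOf_eq (MulAut.conj g⁻¹) t
      rw [MulAut.conj_apply, inv_inv] at h4
      rw [h4, ht]
    have ht'A := hD.invol_mem ht'o ht'N
    have h5 : g⁻¹ * t * g⁻¹⁻¹ ∈ A := by rw [inv_inv]; exact ht'A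
    have h6 := hD.ti hginv htA h5
    rw [h6, orderOf_one] at ht
    omega

end Cfsg.Agent.Lib.Helper46.CTFIXA
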