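import Mathlib
import Cfsg.Agent.Lib.Helper80.CTDefs

/-!
# S5748 piece ZAS2T (helper46, for helper80)
-/

set_option autoImplicit false

namespace Cfsg.Agent.Lib.Helper46.CTZAS2T

open Cfsg.Agent.Lib.Helper80.CT

variable {G : Type*} [Group G] [Finite G]

/-- piece ZAS2T -/
theorem zas_two_trans (A N : Subgroup G) (hne : ∃ g : G, g ∉ N)
    (htrans : ∀ g g' : G, g ∉ N → g' ∉ N → ∃ x ∈ A, (x * g)⁻¹ * g' ∈ N) (hAN : A ≤ N) :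
    MulAction.IsMultiplyPretransitive G (G ⧸ N) 2 := by
  rw [MulAction.is_two_pretransitive_iff]
  intro a b c d hab hcd
  obtain ⟨a₀, rfl⟩ := QuotientGroup.mk_surjective a
  obtain ⟨b₀, rfl⟩ := QuotientGroup.mk_surjective b
  obtain ⟨c₀, rfl⟩ := QuotientGroup.mk_surjective c
  obtain ⟨d₀, rfl⟩ := QuotientGroup.mk_surjective d
  have h1 : a₀⁻¹ * b₀ ∉ N := fun h => hab (QuotientGroup.eq.mpr h)
  have h2 : c₀⁻¹ * d₀ ∉ N := fun h => hcd (QuotientGroup.eq.mpr h)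
  obtain ⟨x, hxA, hx⟩ := htrans _ _ h1 h2
  refine ⟨c₀ * x * a₀⁻¹, ?_, ?_⟩
  · show (((c₀ * x * a₀⁻¹) * a₀ : G) : G ⧸ N) = ((c₀ : G) : G ⧸ N)
    apply QuotientGroup.eq.mpr
    have h3 : (c₀ * x * a₀⁻¹ * a₀)⁻¹ * c₀ = x⁻¹ := by group
    rw [h3]
    exact N.inv_mem (hAN hxA)
  · show (((c₀ * x * a₀⁻¹) * b₀ : G) : G ⧸ N) = ((d₀ : G) : G ⧸ N)
    apply QuotientGroup.eq.mpr
    have h3 : (c₀ * x * a₀⁻¹ * b₀)⁻¹ * d₀ = (x * (a₀⁻¹ * b₀))⁻¹ * (c₀⁻¹ * d₀) := by group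
    rw [h3]
    exact hx

end Cfsg.Agent.Lib.Helper46.CTZAS2T
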