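import Mathlib
import Cfsg.Agent.Lib.Helper80.CTDefs

/-!
# S5748 piece ZASF (helper46, for helper80)
-/

set_option autoImplicit false

namespace Cfsg.Agent.Lib.Helper46.CTZASF

open Cfsg.Agent.Lib.Helper80.CT

variable {G : Type*} [Group G] [Finite G]

/-- piece ZASF -/
theorem zas_faithful [IsSimpleGroup G] (N : Subgroup G) (hN : N ≠ ⊤) (hN' : N ≠ ⊥) :
    FaithfulSMul G (G ⧸ N) ∧ ∀ K : Subgroup G, K.Normal → MulAction.IsPretransitive K (G ⧸ N) →
      ∃ a : G ⧸ N, MulAction.stabilizer K a ≠ ⊥ := by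
  constructor
  · constructor
    intro g₁ g₂ h
    have hcore : N.normalCore = ⊥ := by
      rcases (Subgroup.normalCore_normal N).eq_bot_or_eq_top with h1 | h1
      · exact h1
      · exfalso
        apply hN
        rw [eq_top_iff, ← h1]
        exact Subgroup.normalCore_le N
    have hmem : g₂⁻¹ * g₁ ∈ N.normalCore := by
      rw [Subgroup.normalCore_eq_ker, MonoidHom.mem_ker]
      apply Equiv.Perm.ext
      intro a
      show (g₂⁻¹ * g₁) • a = a
      rw [mul_smul, h a, inv_smul_smul]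
    rw [hcore, Subgroup.mem_bot] at hmem
    have : g₁ = g₂ * (g₂⁻¹ * g₁) := by group
    rw [this, hmem, mul_one]
  · intro K hKn hKt
    rcases hKn.eq_bot_or_eq_top with rfl | rfl
    · exfalso
      obtain ⟨g, hg⟩ : ∃ g : G, g ∉ N := by
        by_contra hcon
        push Not at hcon
        exact hN (eq_top_iff.mpr fun g _ => hcon g)
      obtain ⟨k, hk⟩ := MulAction.exists_smul_eq (↥(⊥ : Subgroup G))
        ((1 : G) : G ⧸ N) ((g : G) : G ⧸ N)
      have hk1 : (k : G) = 1 := Subgroup.mem_bot.mp k.2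
      have hk' : (k : G) • (((1 : G) : G ⧸ N)) = ((g : G) : G ⧸ N) := hk
      rw [hk1, one_smul] at hk'
      have h2 : (1 : G)⁻¹ * g ∈ N := QuotientGroup.eq.mp hk'
      rw [inv_one, one_mul] at h2
      exact hg h2
    · obtain ⟨n, hn, hn1⟩ : ∃ n ∈ N, n ≠ 1 := by
        by_contra hcon
        push Not at hcon
        exact hN' (eq_bot_iff.mpr fun n hn => Subgroup.mem_bot.mpr (hcon n hn))
      refine ⟨((1 : G) : G ⧸ N), ?_⟩
      intro hbot
      have hmem : (⟨n, Subgroup.mem_top n⟩ : ↥(⊤ : Subgroup G)) ∈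
          MulAction.stabilizer ↥(⊤ : Subgroup G) (((1 : G) : G ⧸ N)) := by
        rw [MulAction.mem_stabilizer_iff]
        show n • (((1 : G) : G ⧸ N)) = ((1 : G) : G ⧸ N)
        have h3 : n • (((1 : G) : G ⧸ N)) = ((n * 1 : G) : G ⧸ N) := rfl
        rw [h3, mul_one]
        apply QuotientGroup.eq.mpr
        rw [mul_one]
        exact N.inv_mem hn
      rw [hbot, Subgroup.mem_bot] at hmem
      exact hn1 (congrArg Subtype.val hmem)

end Cfsg.Agent.Lib.Helper46.CTZASF
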