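import Mathlib
import Cfsg.Agent.Lib.Helper81.G2Base
import Cfsg.Agent.Lib.Helper81.SqDer
import Cfsg.Agent.Lib.Helper81.SlSylB

/-!
# S4632 piece G2-TASM (helper46, for helper81): `exists_T_p0`
-/

set_option autoImplicit false

namespace Cfsg.Agent.Lib.Helper46.G2

open Cfsg Cfsg.Lie Matrix Cfsg.Agent.Lib.Helper81.G2Base Cfsg.Agent.Lib.Helper81.SqD

universe u

/-- the pairs `(t, t')` of `SL₂(F)` with `p t = t' p` form a subgroup of the product -/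
def tasmSub {F : Type u} [Field F] (p : Matrix (Fin 2) (Fin 2) F) :
    Subgroup (SpecialLinearGroup (Fin 2) F × SpecialLinearGroup (Fin 2) F) where
  carrier := {x | p * (x.1 : Matrix (Fin 2) (Fin 2) F) = (x.2 : Matrix (Fin 2) (Fin 2) F) * p}
  mul_mem' := by
    intro x y hx hy
    have hx' : p * (x.1 : Matrix (Fin 2) (Fin 2) F) = (x.2 : Matrix (Fin 2) (Fin 2) F) * p := hx
    have hy' : p * (y.1 : Matrix (Fin 2) (Fin 2) F) = (y.2 : Matrix (Fin 2) (Fin 2) F) * p := hy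
    show p * ((x.1 * y.1 : SpecialLinearGroup (Fin 2) F) : Matrix (Fin 2) (Fin 2) F) =
      ((x.2 * y.2 : SpecialLinearGroup (Fin 2) F) : Matrix (Fin 2) (Fin 2) F) * p
    rw [Matrix.SpecialLinearGroup.coe_mul, Matrix.SpecialLinearGroup.coe_mul, ← Matrix.mul_assoc, hx',
      Matrix.mul_assoc, hy', Matrix.mul_assoc]
  one_mem' := by
    show p * ((1 : SpecialLinearGroup (Fin 2) F) : Matrix (Fin 2) (Fin 2) F) =
      ((1 : SpecialLinearGroup (Fin 2) F) : Matrix (Fin 2) (Fin 2) F) * p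
    rw [Matrix.SpecialLinearGroup.coe_one, Matrix.mul_one, Matrix.one_mul]
  inv_mem' := by
    intro x hx
    have hx' : p * (x.1 : Matrix (Fin 2) (Fin 2) F) = (x.2 : Matrix (Fin 2) (Fin 2) F) * p := hx
    show p * ((x.1⁻¹ : SpecialLinearGroup (Fin 2) F) : Matrix (Fin 2) (Fin 2) F) =
      ((x.2⁻¹ : SpecialLinearGroup (Fin 2) F) : Matrix (Fin 2) (Fin 2) F) * p
    have h1 : (x.1 : Matrix (Fin 2) (Fin 2) F) *
        ((x.1⁻¹ : SpecialLinearGroup (Fin 2) F) : Matrix (Fin 2) (Fin 2) F) = 1 := by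
      rw [← Matrix.SpecialLinearGroup.coe_mul, mul_inv_cancel, Matrix.SpecialLinearGroup.coe_one]
    have h2 : ((x.2⁻¹ : SpecialLinearGroup (Fin 2) F) : Matrix (Fin 2) (Fin 2) F) *
        (x.2 : Matrix (Fin 2) (Fin 2) F) = 1 := by
      rw [← Matrix.SpecialLinearGroup.coe_mul, inv_mul_cancel, Matrix.SpecialLinearGroup.coe_one]
    calc p * ((x.1⁻¹ : SpecialLinearGroup (Fin 2) F) : Matrix (Fin 2) (Fin 2) F)
        = ((x.2⁻¹ : SpecialLinearGroup (Fin 2) F) : Matrix (Fin 2) (Fin 2) F) *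
            ((x.2 : Matrix (Fin 2) (Fin 2) F) * p) *
            ((x.1⁻¹ : SpecialLinearGroup (Fin 2) F) : Matrix (Fin 2) (Fin 2) F) := by
          rw [← Matrix.mul_assoc, h2, Matrix.one_mul]
      _ = ((x.2⁻¹ : SpecialLinearGroup (Fin 2) F) : Matrix (Fin 2) (Fin 2) F) * p := by
          rw [← hx', Matrix.mul_assoc, Matrix.mul_assoc, h1, Matrix.mul_one]

theorem mem_tasmSub {F : Type u} [Field F] (p : Matrix (Fin 2) (Fin 2) F)
    (x : SpecialLinearGroup (Fin 2) F × SpecialLinearGroup (Fin 2) F) :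
    x ∈ tasmSub p ↔
      p * (x.1 : Matrix (Fin 2) (Fin 2) F) = (x.2 : Matrix (Fin 2) (Fin 2) F) * p := Iff.rfl

/-- the common tail of the two cases -/
theorem tasm_tail {F : Type u} [Field F] {a : ℕ}
    (s w : SpecialLinearGroup (Fin 2) F)
    (H1 : ∃ T : Subgroup (SpecialLinearGroup (Fin 2) F), IsPGroup 2 T ∧ 2 ^ (a + 1) ∣ Nat.card T ∧
        SqDer T ∧ s ∈ T ∧ w ∈ T ∧ ∀ t ∈ T, ∃ k : ℤ, t = s ^ k ∨ t = s ^ k * w)
    (H2 : ∃ p : GL (Fin 2) F,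
        (∃ μ : F, (p : Matrix (Fin 2) (Fin 2) F) * (p : Matrix (Fin 2) (Fin 2) F) = μ • 1) ∧
        (p : Matrix (Fin 2) (Fin 2) F) * (s : Matrix (Fin 2) (Fin 2) F) =
          ((s⁻¹ : SpecialLinearGroup (Fin 2) F) : Matrix (Fin 2) (Fin 2) F) *
            (p : Matrix (Fin 2) (Fin 2) F) ∧
        (p : Matrix (Fin 2) (Fin 2) F) * (w : Matrix (Fin 2) (Fin 2) F) =
          ((s * w : SpecialLinearGroup (Fin 2) F) : Matrix (Fin 2) (Fin 2) F) *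
            (p : Matrix (Fin 2) (Fin 2) F) ∧
        (∀ (k : ℤ) (μ : F), (p : Matrix (Fin 2) (Fin 2) F) ≠
          μ • ((s ^ k : SpecialLinearGroup (Fin 2) F) : Matrix (Fin 2) (Fin 2) F)) ∧
        (∀ (k : ℤ) (μ : F), (p : Matrix (Fin 2) (Fin 2) F) ≠
          μ • ((s ^ k * w : SpecialLinearGroup (Fin 2) F) : Matrix (Fin 2) (Fin 2) F))) :
    ∃ (T : Subgroup (SpecialLinearGroup (Fin 2) F)) (p : GL (Fin 2) F),
      IsPGroup 2 T ∧ 2 ^ (a + 1) ∣ Nat.card T ∧ SqDer T ∧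
      (∃ μ : F, (p : Matrix (Fin 2) (Fin 2) F) * (p : Matrix (Fin 2) (Fin 2) F) = μ • 1) ∧
      (∀ t ∈ T, ∃ t' ∈ T, (p : Matrix (Fin 2) (Fin 2) F) * (t : Matrix (Fin 2) (Fin 2) F) =
        (t' : Matrix (Fin 2) (Fin 2) F) * (p : Matrix (Fin 2) (Fin 2) F)) ∧
      (∀ t ∈ T, ∀ μ : F, (p : Matrix (Fin 2) (Fin 2) F) ≠
        μ • (t : Matrix (Fin 2) (Fin 2) F)) := by
  obtain ⟨T, hT, hdvd, hsq, hsT, hwT, hdesc⟩ := H1
  obtain ⟨p, hpp, hps, hpw, hn1, hn2⟩ := H2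
  refine ⟨T, p, hT, hdvd, hsq, hpp, ?_, ?_⟩
  · have hs_mem : (s, s⁻¹) ∈ tasmSub (p : Matrix (Fin 2) (Fin 2) F) := hps
    have hw_mem : (w, s * w) ∈ tasmSub (p : Matrix (Fin 2) (Fin 2) F) := hpw
    have hk_mem : ∀ k : ℤ, (s ^ k, s⁻¹ ^ k) ∈ tasmSub (p : Matrix (Fin 2) (Fin 2) F) := by
      intro k
      have := Subgroup.zpow_mem _ hs_mem k
      rwa [Prod.pow_mk] at this
    intro t ht
    obtain ⟨k, rfl | rfl⟩ := hdesc t ht
    · exact ⟨s⁻¹ ^ k, Subgroup.zpow_mem _ (Subgroup.inv_mem _ hsT) k, hk_mem k⟩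
    · refine ⟨s⁻¹ ^ k * (s * w), Subgroup.mul_mem _ (Subgroup.zpow_mem _ (Subgroup.inv_mem _ hsT) k)
        (Subgroup.mul_mem _ hsT hwT), ?_⟩
      have := Subgroup.mul_mem _ (hk_mem k) hw_mem
      rwa [Prod.mk_mul_mk] at this
  · intro t ht μ
    obtain ⟨k, rfl | rfl⟩ := hdesc t ht
    · exact hn1 k μ
    · exact hn2 k μ

/-- TASM -/
theorem exists_T_p0 {F : Type u} [Field F] [Fintype F] (hodd : Odd (Fintype.card F))
    (H1 : ∀ {a : ℕ}, 2 ≤ a → ∀ s w : SpecialLinearGroup (Fin 2) F, orderOf s = 2 ^ a →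
      s * w * s = w →
      (w : Matrix (Fin 2) (Fin 2) F) * (w : Matrix (Fin 2) (Fin 2) F) = -1 →
      ∃ T : Subgroup (SpecialLinearGroup (Fin 2) F), IsPGroup 2 T ∧ 2 ^ (a + 1) ∣ Nat.card T ∧
        SqDer T ∧ s ∈ T ∧ w ∈ T ∧ ∀ t ∈ T, ∃ k : ℤ, t = s ^ k ∨ t = s ^ k * w)
    (H2 : ∀ {a : ℕ}, 2 ≤ a → ∀ s w : SpecialLinearGroup (Fin 2) F, orderOf s = 2 ^ a →
      s * w * s = w →
      (w : Matrix (Fin 2) (Fin 2) F) * (w : Matrix (Fin 2) (Fin 2) F) = -1 →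
      ∃ p : GL (Fin 2) F,
        (∃ μ : F, (p : Matrix (Fin 2) (Fin 2) F) * (p : Matrix (Fin 2) (Fin 2) F) = μ • 1) ∧
        (p : Matrix (Fin 2) (Fin 2) F) * (s : Matrix (Fin 2) (Fin 2) F) =
          ((s⁻¹ : SpecialLinearGroup (Fin 2) F) : Matrix (Fin 2) (Fin 2) F) *
            (p : Matrix (Fin 2) (Fin 2) F) ∧
        (p : Matrix (Fin 2) (Fin 2) F) * (w : Matrix (Fin 2) (Fin 2) F) =
          ((s * w : SpecialLinearGroup (Fin 2) F) : Matrix (Fin 2) (Fin 2) F) *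
            (p : Matrix (Fin 2) (Fin 2) F) ∧
        (∀ (k : ℤ) (μ : F), (p : Matrix (Fin 2) (Fin 2) F) ≠
          μ • ((s ^ k : SpecialLinearGroup (Fin 2) F) : Matrix (Fin 2) (Fin 2) F)) ∧
        (∀ (k : ℤ) (μ : F), (p : Matrix (Fin 2) (Fin 2) F) ≠
          μ • ((s ^ k * w : SpecialLinearGroup (Fin 2) F) : Matrix (Fin 2) (Fin 2) F))) :
    ∃ (T : Subgroup (SpecialLinearGroup (Fin 2) F)) (p : GL (Fin 2) F),
      IsPGroup 2 T ∧ 2 ^ padicValNat 2 (Fintype.card F ^ 2 - 1) ∣ Nat.card T ∧ SqDer T ∧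
      (∃ μ : F, (p : Matrix (Fin 2) (Fin 2) F) * (p : Matrix (Fin 2) (Fin 2) F) = μ • 1) ∧
      (∀ t ∈ T, ∃ t' ∈ T, (p : Matrix (Fin 2) (Fin 2) F) * (t : Matrix (Fin 2) (Fin 2) F) =
        (t' : Matrix (Fin 2) (Fin 2) F) * (p : Matrix (Fin 2) (Fin 2) F)) ∧
      (∀ t ∈ T, ∀ μ : F, (p : Matrix (Fin 2) (Fin 2) F) ≠
        μ • (t : Matrix (Fin 2) (Fin 2) F)) := by
  classical
  have hfact : Fact (Nat.Prime 2) := ⟨Nat.prime_two⟩
  obtain ⟨q, hq⟩ : ∃ q, q = Fintype.card F := ⟨_, rfl⟩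
  have hq1 : 1 < q := by
    rw [hq]
    exact Fintype.one_lt_card
  rw [← hq] at hodd ⊢
  obtain ⟨t, ht⟩ := hodd
  have hc : padicValNat 2 (q ^ 2 - 1) = padicValNat 2 (q + 1) + padicValNat 2 (q - 1) := by
    have h := padicValNat.pow_two_sub_pow (x := q) (y := 1) hq1 ⟨t, by omega⟩
      (by rintro ⟨u, hu⟩; omega) (n := 2) (by norm_num) (by decide)
    rw [one_pow, padicValNat_self] at h
    omega
  rcases Nat.even_or_odd t with hte | hto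
  · -- `q ≡ 1 mod 4`
    obtain ⟨u, hu⟩ := hte
    have hq4 : q % 4 = 1 := by omega
    have h5 : padicValNat 2 (q + 1) = 1 :=
      Cfsg.Agent.Lib.Helper81.Sl2Base.val_two_of_mod_four (by omega)
    have h6 : 2 ≤ padicValNat 2 (q - 1) :=
      (padicValNat_dvd_iff_le (by omega)).1 ⟨u, by omega⟩
    have h7 : 2 ^ padicValNat 2 (q - 1) ∣ Fintype.card F - 1 := by
      rw [← hq]
      exact pow_padicValNat_dvd
    obtain ⟨s, w, hs, hsws, hw2⟩ := Cfsg.Agent.Lib.Helper81.Sl2Base.exists_pair_split h7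
    have h8 := tasm_tail s w (H1 h6 s w hs hsws hw2) (H2 h6 s w hs hsws hw2)
    rw [hc, h5, add_comm]
    exact h8
  · -- `q ≡ 3 mod 4`
    obtain ⟨u, hu⟩ := hto
    have hq4 : q % 4 = 3 := by omega
    have h5 : padicValNat 2 (q - 1) = 1 :=
      Cfsg.Agent.Lib.Helper81.Sl2Base.val_two_of_mod_four (by omega)
    have h6 : 2 ≤ padicValNat 2 (q + 1) :=
      (padicValNat_dvd_iff_le (by omega)).1 ⟨u + 1, by omega⟩
    have h7 : 2 ^ padicValNat 2 (q + 1) ∣ Fintype.card F + 1 := by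
      rw [← hq]
      exact pow_padicValNat_dvd
    obtain ⟨s, w, hs, hsws, hw2⟩ :=
      Cfsg.Agent.Lib.Helper81.Sl2Base.exists_pair_nonsplit (by rw [← hq]; exact hq4) h7
    have h8 := tasm_tail s w (H1 h6 s w hs hsws hw2) (H2 h6 s w hs hsws hw2)
    rw [hc, h5]
    exact h8

end Cfsg.Agent.Lib.Helper46.G2
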