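import Mathlib
import Cfsg.Agent.Lib.Helper18.LSDefs

/-!
# Project LS (helper18): S2333, piece CHAR2 (helper46)
-/

set_option autoImplicit false

namespace Cfsg.Agent.Lib.Helper18.LS

open Matrix

universe u

variable {F : Type u} [Field F] {n : ℕ}

-- piece CHAR2
theorem charTwo_of_even [Fintype F] (h : Even (Fintype.card F)) : CharP F 2 := by
  apply ringChar.of_eq
  rw [FiniteField.even_card_iff_char_two]
  exact Nat.even_iff.mp h

end Cfsg.Agent.Lib.Helper18.LS
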