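import Cfsg.Agent.Lib.Helper46.PSL2a

set_option autoImplicit false

namespace Cfsg.Agent.Lib.Helper46

open Matrix Cfsg Cfsg.Agent.Lib.Helper4
open scoped ComplexConjugate

section arith

theorem count_arith (k N1 N2 N3 N4 N5 N6 P : ℕ) (hk : 3 ≤ k) (h1 : N1 = 1) (h2 : N2 ≤ 1)
    (h4 : N4 ≤ 2) (h5 : N5 ≤ 2)
    (hP : P * 2 = (2 * k + 1) * ((2 * k + 1) ^ 2 - 1))
    (hE : N1 * 1 ^ 2 + (N2 * (2 * k + 1) ^ 2 + (N3 * (2 * k + 2) ^ 2 + (N4 * (k + 1) ^ 2 +
      (N5 * k ^ 2 + N6 * (2 * k) ^ 2)))) = P) : 1 ≤ N3 ∧ 1 ≤ N6 := by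
  subst h1
  have hP' : P = 2 * k * (k + 1) * (2 * k + 1) := by
    have h0 : (2 * k + 1) ^ 2 - 1 = 4 * k * (k + 1) := by
      have : (2 * k + 1) ^ 2 = 4 * k * (k + 1) + 1 := by ring
      omega
    rw [h0] at hP
    have : P * 2 = (2 * k * (k + 1) * (2 * k + 1)) * 2 := by rw [hP]; ring
    exact Nat.eq_of_mul_eq_mul_right (by norm_num) this
  subst hP'
  have hE' : (1 : ℤ) * 1 ^ 2 + (N2 * (2 * k + 1) ^ 2 + (N3 * (2 * k + 2) ^ 2 + (N4 * (k + 1) ^ 2 +
      (N5 * k ^ 2 + N6 * (2 * k) ^ 2)))) = 2 * k * (k + 1) * (2 * k + 1) := by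
    exact_mod_cast hE
  constructor
  · by_contra h
    have h0 : N3 = 0 := by omega
    subst h0
    have hdvd : (k : ℤ) ∣ 1 + N2 + N4 :=
      ⟨2 * (k + 1) * (2 * k + 1) - N2 * (4 * k + 4) - N4 * (k + 2) - N5 * k - 4 * N6 * k, by
        push_cast at hE' ⊢
        linear_combination hE'⟩
    have hle := Int.le_of_dvd (by positivity) hdvd
    have hk4 : k ≤ 4 := by omega
    interval_cases k
    · norm_num at hE
      interval_cases N2 <;> interval_cases N4 <;> interval_cases N5 <;> omega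
    · norm_num at hE
      interval_cases N2 <;> interval_cases N4 <;> interval_cases N5 <;> omega
  · by_contra h
    have h0 : N6 = 0 := by omega
    subst h0
    have hdvd : ((k : ℤ) + 1) ∣ 1 + N2 + N5 :=
      ⟨2 * k * (2 * k + 1) - 4 * k * N2 - 4 * N3 * (k + 1) - N4 * (k + 1) - N5 * (k - 1), by
        push_cast at hE' ⊢
        linear_combination hE'⟩
    have hle := Int.le_of_dvd (by positivity) hdvd
    have hk4 : k ≤ 3 := by omega
    interval_cases k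
    norm_num at hE
    interval_cases N2 <;> interval_cases N4 <;> interval_cases N5 <;> omega

theorem sq_sub_one_factor (q : ℕ) (hq : 1 ≤ q) : q ^ 2 - 1 = (q - 1) * (q + 1) := by
  obtain ⟨m, rfl⟩ : ∃ m, q = m + 1 := ⟨q - 1, by omega⟩
  have : (m + 1) ^ 2 = (m + 1 - 1) * (m + 1 + 1) + 1 := by
    simp only [Nat.add_sub_cancel]
    ring
  omega

end arith

section graph

theorem degreeGraph_core {S : Type*} [Group S] (q t n : ℕ) (ht : t.Prime) (hq : q = t ^ n)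
    (hq2 : 2 ≤ q)
    (hsub : ∀ d ∈ charDegrees S, d = 1 ∨ d = q ∨ d = q + 1 ∨ d + 1 = q ∨ 2 * d = q + 1 ∨
      2 * d + 1 = q)
    (h1 : q ∈ charDegrees S) (h2 : q + 1 ∈ charDegrees S) (h3 : q - 1 ∈ charDegrees S) :
    degreePrimes S = {r : ℕ | r.Prime ∧ r ∣ q * (q ^ 2 - 1)} ∧
    (∀ r s : ℕ, (degreeGraph S).Adj r s → (r ≠ s ∧ r.Prime ∧ s.Prime ∧
      ((r ∣ q + 1 ∧ s ∣ q + 1) ∨ (r ∣ q - 1 ∧ s ∣ q - 1)))) ∧
    (∀ r s : ℕ, r ≠ s → r.Prime → s.Prime →
      ((r ∣ q + 1 ∧ s ∣ q + 1) ∨ (r ∣ q - 1 ∧ s ∣ q - 1)) → (degreeGraph S).Adj r s) := by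
  have hfact := sq_sub_one_factor q (by omega)
  have key : ∀ r d : ℕ, r.Prime → d ∈ charDegrees S → r ∣ d →
      (d = q ∧ r ∣ q) ∨ r ∣ q + 1 ∨ r ∣ q - 1 := by
    intro r d hr hd hrd
    rcases hsub d hd with rfl | rfl | rfl | h | h | h
    · exact absurd (Nat.dvd_one.mp hrd) hr.one_lt.ne'
    · exact Or.inl ⟨rfl, hrd⟩
    · exact Or.inr (Or.inl hrd)
    · right; right
      have : d = q - 1 := by omega
      rw [← this]; exact hrd
    · right; left
      rw [← h]; exact Dvd.dvd.mul_left hrd 2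
    · right; right
      have : q - 1 = 2 * d := by omega
      rw [this]; exact Dvd.dvd.mul_left hrd 2
  refine ⟨?_, ?_, ?_⟩
  · ext r
    simp only [degreePrimes, Set.mem_ofPred_eq]
    constructor
    · rintro ⟨hr, d, hd, hrd⟩
      refine ⟨hr, ?_⟩
      rw [hfact]
      rcases key r d hr hd hrd with ⟨-, h⟩ | h | h
      · exact Dvd.dvd.mul_right h _
      · exact Dvd.dvd.mul_left (Dvd.dvd.mul_left h _) _
      · exact Dvd.dvd.mul_left (Dvd.dvd.mul_right h _) _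
    · rintro ⟨hr, hrd⟩
      rw [hfact] at hrd
      rcases (hr.dvd_mul).mp hrd with h | h
      · exact ⟨hr, q, h1, h⟩
      · rcases (hr.dvd_mul).mp h with h | h
        · exact ⟨hr, q - 1, h3, h⟩
        · exact ⟨hr, q + 1, h2, h⟩
  · rintro r s ⟨hne, hr, hs, d, hd, hrs⟩
    have hrd : r ∣ d := dvd_of_mul_right_dvd hrs
    have hsd : s ∣ d := dvd_of_mul_left_dvd hrs
    refine ⟨hne, hr, hs, ?_⟩
    rcases hsub d hd with rfl | rfl | rfl | h | h | h
    · exact absurd (Nat.dvd_one.mp hrd) hr.one_lt.ne'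
    · exfalso
      rw [hq] at hrd hsd
      have e1 := (Nat.prime_dvd_prime_iff_eq hr ht).mp (hr.dvd_of_dvd_pow hrd)
      have e2 := (Nat.prime_dvd_prime_iff_eq hs ht).mp (hs.dvd_of_dvd_pow hsd)
      exact hne (e1.trans e2.symm)
    · exact Or.inl ⟨hrd, hsd⟩
    · right
      have : d = q - 1 := by omega
      rw [← this]; exact ⟨hrd, hsd⟩
    · left
      rw [← h]; exact ⟨Dvd.dvd.mul_left hrd 2, Dvd.dvd.mul_left hsd 2⟩
    · right
      have : q - 1 = 2 * d := by omega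
      rw [this]; exact ⟨Dvd.dvd.mul_left hrd 2, Dvd.dvd.mul_left hsd 2⟩
  · intro r s hne hr hs h
    have hcop : Nat.Coprime r s := (Nat.coprime_primes hr hs).mpr hne
    rcases h with ⟨a, b⟩ | ⟨a, b⟩
    · exact ⟨hne, hr, hs, q + 1, h2, hcop.mul_dvd_of_dvd_of_dvd a b⟩
    · exact ⟨hne, hr, hs, q - 1, h3, hcop.mul_dvd_of_dvd_of_dvd a b⟩

theorem degreeGraph_even {S : Type*} [Group S] (q t n : ℕ) (ht : t.Prime) (hq : q = t ^ n)
    (hq2 : 2 ≤ q)
    (hsub : ∀ d ∈ charDegrees S, d = 1 ∨ d = q ∨ d = q + 1 ∨ d + 1 = q ∨ 2 * d = q + 1 ∨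
      2 * d + 1 = q)
    (h1 : q ∈ charDegrees S) (h2 : q + 1 ∈ charDegrees S) (h3 : q - 1 ∈ charDegrees S) :
    degreePrimes S = {r : ℕ | r.Prime ∧ r ∣ q * (q ^ 2 - 1)} ∧
    ∀ r s : ℕ, (degreeGraph S).Adj r s ↔ (r ≠ s ∧ r.Prime ∧ s.Prime ∧
      ((r ∣ q + 1 ∧ s ∣ q + 1) ∨ (r ∣ q - 1 ∧ s ∣ q - 1))) := by
  obtain ⟨c1, c2, c3⟩ := degreeGraph_core (S := S) q t n ht hq hq2 hsub h1 h2 h3
  exact ⟨c1, fun r s => ⟨c2 r s, fun ⟨a, b, c, d⟩ => c3 r s a b c d⟩⟩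

theorem degreeGraph_odd {S : Type*} [Group S] (q t n : ℕ) (ht : t.Prime) (hq : q = t ^ n)
    (hodd : Odd q) (hq2 : 2 ≤ q)
    (hsub : ∀ d ∈ charDegrees S, d = 1 ∨ d = q ∨ d = q + 1 ∨ d + 1 = q ∨ 2 * d = q + 1 ∨
      2 * d + 1 = q)
    (h1 : q ∈ charDegrees S) (h2 : q + 1 ∈ charDegrees S) (h3 : q - 1 ∈ charDegrees S) :
    degreePrimes S = {r : ℕ | r.Prime ∧ r ∣ q * (q ^ 2 - 1)} ∧
    ∀ r s : ℕ, (degreeGraph S).Adj r s ↔ (r ≠ s ∧ r.Prime ∧ s.Prime ∧ r ∣ q ^ 2 - 1 ∧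
      s ∣ q ^ 2 - 1 ∧ (r = 2 ∨ s = 2 ∨ (r ∣ q + 1 ∧ s ∣ q + 1) ∨ (r ∣ q - 1 ∧ s ∣ q - 1))) := by
  obtain ⟨c1, c2, c3⟩ := degreeGraph_core (S := S) q t n ht hq hq2 hsub h1 h2 h3
  have hfact := sq_sub_one_factor q (by omega)
  obtain ⟨k, hk⟩ := hodd
  have e1 : 2 ∣ q + 1 := ⟨k + 1, by omega⟩
  have e2 : 2 ∣ q - 1 := ⟨k, by omega⟩
  refine ⟨c1, fun r s => ⟨fun h => ?_, fun h => ?_⟩⟩
  · obtain ⟨a, b, c, d⟩ := c2 r s h
    refine ⟨a, b, c, ?_, ?_, Or.inr (Or.inr d)⟩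
    · rw [hfact]
      rcases d with ⟨d1, -⟩ | ⟨d1, -⟩
      · exact Dvd.dvd.mul_left d1 _
      · exact Dvd.dvd.mul_right d1 _
    · rw [hfact]
      rcases d with ⟨-, d1⟩ | ⟨-, d1⟩
      · exact Dvd.dvd.mul_left d1 _
      · exact Dvd.dvd.mul_right d1 _
  · obtain ⟨a, b, c, d, e, f⟩ := h
    rw [hfact] at d e
    rcases f with rfl | rfl | f | f
    · rcases (c.dvd_mul).mp e with h | h
      · exact c3 _ _ a b c (Or.inr ⟨e2, h⟩)
      · exact c3 _ _ a b c (Or.inl ⟨e1, h⟩)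
    · rcases (b.dvd_mul).mp d with h | h
      · exact c3 _ _ a b c (Or.inr ⟨h, e2⟩)
      · exact c3 _ _ a b c (Or.inl ⟨h, e1⟩)
    · exact c3 _ _ a b c (Or.inl f)
    · exact c3 _ _ a b c (Or.inr f)

end graph

section SL

open scoped Classical

variable {F : Type*} [Field F] [Fintype F]

theorem sl2_char_two_succ [CharP F 2] (h4 : 4 ≤ Fintype.card F) :
    Fintype.card F + 1 ∈ charDegrees (SpecialLinearGroup (Fin 2) F) := by
  obtain ⟨-, -, h, -⟩ := (Cfsg.Agent.S2300.result (F := F)).2 h4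
  have hne : Nat.card {χ : Cfsg.IrrCharacter (Matrix.SpecialLinearGroup (Fin 2) F) //
      (χ : Matrix.SpecialLinearGroup (Fin 2) F → ℂ) 1 = (Fintype.card F : ℂ) + 1} ≠ 0 := by
    rw [h]; omega
  obtain ⟨⟨χ, hχ⟩⟩ := (Nat.card_ne_zero.mp hne).1
  refine (mem_charDegrees_iff_deg _).mpr ⟨χ, deg_eq _ _ ?_⟩
  rw [hχ]; push_cast; ring

theorem sl2_char_two_pred [CharP F 2] (h4 : 4 ≤ Fintype.card F) :
    Fintype.card F - 1 ∈ charDegrees (SpecialLinearGroup (Fin 2) F) := by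
  obtain ⟨-, -, -, h⟩ := (Cfsg.Agent.S2300.result (F := F)).2 h4
  have hne : Nat.card {χ : Cfsg.IrrCharacter (Matrix.SpecialLinearGroup (Fin 2) F) //
      (χ : Matrix.SpecialLinearGroup (Fin 2) F → ℂ) 1 = (Fintype.card F : ℂ) - 1} ≠ 0 := by
    rw [h]; omega
  obtain ⟨⟨χ, hχ⟩⟩ := (Nat.card_ne_zero.mp hne).1
  refine (mem_charDegrees_iff_deg _).mpr ⟨χ, deg_eq _ _ ?_⟩
  rw [hχ, Nat.cast_sub (by omega)]; push_cast; ring

theorem psl2_odd_degrees (k : ℕ) (hk : Fintype.card F = 2 * k + 1) (hk3 : 3 ≤ k) :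
    2 * k + 2 ∈ charDegrees (ProjectiveSpecialLinearGroup (Fin 2) F) ∧
    2 * k ∈ charDegrees (ProjectiveSpecialLinearGroup (Fin 2) F) := by
  have h2 : (2 : F) ≠ 0 := by
    intro h
    have : CharP F 2 := CharTwo.of_one_ne_zero_of_two_eq_zero one_ne_zero h
    have := FiniteField.even_card_of_char_two (F := F) (ringChar.eq F 2)
    omega
  have hodd : Odd (Fintype.card F) := ⟨k, hk⟩
  have := irr_finite (G := SpecialLinearGroup (Fin 2) F)
  let _ : Fintype (IrrCharacter (SpecialLinearGroup (Fin 2) F)) := Fintype.ofFinite _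
  let _ : Fintype (ProjectiveSpecialLinearGroup (Fin 2) F) := Fintype.ofFinite _
  have := irr_finite (G := ProjectiveSpecialLinearGroup (Fin 2) F)
  let _ : Fintype (IrrCharacter (ProjectiveSpecialLinearGroup (Fin 2) F)) := Fintype.ofFinite _
  have hD : ∀ ψ : IrrCharacter (ProjectiveSpecialLinearGroup (Fin 2) F),
      deg ψ ∈ ({1, 2 * k + 1, 2 * k + 2, k + 1, k, 2 * k} : Finset ℕ) := by
    intro ψ
    have h := sl2_deg_mem (Cfsg.Agent.Lib.Helper83.inflate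
      (Subgroup.center (SpecialLinearGroup (Fin 2) F)) ψ)
    rw [deg_inflate, hk] at h
    simp only [Finset.mem_insert, Finset.mem_singleton]
    omega
  have hsum := sum_by_deg _ hD (fun d => d ^ 2)
  rw [sum_deg_sq] at hsum
  rw [Finset.sum_insert (by simp only [Finset.mem_insert, Finset.mem_singleton]; omega),
    Finset.sum_insert (by simp only [Finset.mem_insert, Finset.mem_singleton]; omega),
    Finset.sum_insert (by simp only [Finset.mem_insert, Finset.mem_singleton]; omega),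
    Finset.sum_insert (by simp only [Finset.mem_insert, Finset.mem_singleton]; omega),
    Finset.sum_insert (by simp only [Finset.mem_singleton]; omega),
    Finset.sum_singleton] at hsum
  have b1 : (Finset.univ.filter
      (fun ψ : IrrCharacter (ProjectiveSpecialLinearGroup (Fin 2) F) => deg ψ = 1)).card = 1 := by
    apply le_antisymm
    · exact (card_filter_deg_quot_le _ 1).trans (card_deg_one_sl2 (F := F) (by omega)).le
    · apply Finset.card_pos.mpr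
      refine ⟨⟨fun _ => 1, isIrrCharacter_one⟩, ?_⟩
      simp only [Finset.mem_filter, Finset.mem_univ, true_and]
      exact deg_eq _ _ (by simp)
  have b2 : (Finset.univ.filter
      (fun ψ : IrrCharacter (ProjectiveSpecialLinearGroup (Fin 2) F) =>
        deg ψ = 2 * k + 1)).card ≤ 1 := by
    have h := card_deg_q_sl2 (F := F) (by omega)
    rw [hk] at h
    exact (card_filter_deg_quot_le _ _).trans h.le
  have b4 : (Finset.univ.filter
      (fun ψ : IrrCharacter (ProjectiveSpecialLinearGroup (Fin 2) F) =>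
        deg ψ = k + 1)).card ≤ 2 :=
    (card_filter_deg_quot_le _ _).trans (card_deg_half_succ h2 k hk (by omega)).le
  have b5 : (Finset.univ.filter
      (fun ψ : IrrCharacter (ProjectiveSpecialLinearGroup (Fin 2) F) =>
        deg ψ = k)).card ≤ 2 := by
    have h := ((Cfsg.Agent.S2299.result hodd).2 (by omega)).2.2.2.2.2
    rw [natCard_deg_gen] at h
    have hk' : (Fintype.card F - 1) / 2 = k := by omega
    rw [hk'] at h
    exact (card_filter_deg_quot_le _ _).trans h.le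
  have hP := natCard_psl2 h2
  rw [hk] at hP
  obtain ⟨r1, r2⟩ := count_arith k _ _ _ _ _ _ _ hk3 b1 b2 b4 b5 hP hsum.symm
  constructor
  · obtain ⟨ψ, hψ⟩ := Finset.card_pos.mp r1
    simp only [Finset.mem_filter, Finset.mem_univ, true_and] at hψ
    exact (mem_charDegrees_iff_deg _).mpr ⟨ψ, hψ⟩
  · obtain ⟨ψ, hψ⟩ := Finset.card_pos.mp r2
    simp only [Finset.mem_filter, Finset.mem_univ, true_and] at hψ
    exact (mem_charDegrees_iff_deg _).mpr ⟨ψ, hψ⟩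

end SL

end Cfsg.Agent.Lib.Helper46
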