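import Cfsg.Agent.Lib.Helper46.GL2e
import Cfsg.Agent.Lib.Helper20.PermChar

set_option autoImplicit false

namespace Cfsg.Agent.Lib.Helper46

open Matrix Cfsg Cfsg.Agent.Lib.Helper4
open scoped ComplexConjugate

section SLnLin

variable {F : Type*} [Field F] {m : ℕ}

/-- `SL_n`, `n ≥ 3`, is transitive on ordered pairs of linearly independent vectors. -/
theorem sln_exists_pair (v w : Fin (m + 3) → F) (h : LinearIndependent F ![v, w]) :
    ∃ g : SpecialLinearGroup (Fin (m + 3)) F,
      g • (Pi.single 0 1 : Fin (m + 3) → F) = v ∧ g • (Pi.single 1 1 : Fin (m + 3) → F) = w := by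
  have hE : LinearIndependent F ![(Pi.single 0 1 : Fin (m + 3) → F), Pi.single 1 1] := by
    rw [LinearIndependent.pair_iff]
    intro a b hab
    have h0 := congrFun hab 0
    have h1 := congrFun hab 1
    simp at h0 h1
    exact ⟨h0, h1⟩
  let f := hE.linearCombinationEquiv.symm ≪≫ₗ h.linearCombinationEquiv
  have : FiniteDimensional F (Submodule.span F
      (Set.range ![(Pi.single 0 1 : Fin (m + 3) → F), Pi.single 1 1])) :=
    FiniteDimensional.span_of_finite F (Set.finite_range _)
  obtain ⟨g, hg⟩ := Submodule.exists_linearEquiv_restrict_eq f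
  have g0 : g (Pi.single 0 1) = v := by
    have h1 : (Pi.single 0 1 : Fin (m + 3) → F) ∈ Submodule.span F
        (Set.range ![(Pi.single 0 1 : Fin (m + 3) → F), Pi.single 1 1]) :=
      Submodule.subset_span ⟨0, rfl⟩
    have := hg ⟨_, h1⟩
    rw [← this]
    have e : hE.linearCombinationEquiv (Finsupp.single 0 1) = ⟨_, h1⟩ := by
      apply Subtype.ext; simp
    simp [f, ← e]
  have g1 : g (Pi.single 1 1) = w := by
    have h1 : (Pi.single 1 1 : Fin (m + 3) → F) ∈ Submodule.span F
        (Set.range ![(Pi.single 0 1 : Fin (m + 3) → F), Pi.single 1 1]) :=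
      Submodule.subset_span ⟨1, rfl⟩
    have := hg ⟨_, h1⟩
    rw [← this]
    have e : hE.linearCombinationEquiv (Finsupp.single 1 1) = ⟨_, h1⟩ := by
      apply Subtype.ext; simp
    simp [f, ← e]
  set M : Matrix (Fin (m + 3)) (Fin (m + 3)) F := LinearMap.toMatrix' (g : _ →ₗ[F] _) with hM
  have hMv : ∀ x, M *ᵥ x = g x := fun x => by
    rw [hM, LinearMap.toMatrix'_mulVec]; rfl
  have hdet : M.det ≠ 0 := by
    rw [hM, LinearMap.det_toMatrix']
    exact (LinearEquiv.isUnit_det' g).ne_zero
  set D : Matrix (Fin (m + 3)) (Fin (m + 3)) F :=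
    diagonal (fun i => if i = 2 then M.det⁻¹ else 1) with hD
  have hDdet : D.det = M.det⁻¹ := by
    rw [hD, det_diagonal, Finset.prod_ite_eq' Finset.univ (2 : Fin (m + 3)) (fun _ => M.det⁻¹)]
    simp
  refine ⟨⟨M * D, by rw [det_mul, hDdet, mul_inv_cancel₀ hdet]⟩, ?_, ?_⟩
  · show (M * D) *ᵥ (Pi.single 0 1) = v
    rw [← mulVec_mulVec, hD, diagonal_mulVec_single, hMv]
    have : (2 : Fin (m + 3)) ≠ 0 := by
      intro h; have := congrArg Fin.val h; simp at this
      rw [Nat.mod_eq_of_lt (by omega)] at this; omega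
    simp [this.symm, g0]
  · show (M * D) *ᵥ (Pi.single 1 1) = w
    rw [← mulVec_mulVec, hD, diagonal_mulVec_single, hMv]
    have : (2 : Fin (m + 3)) ≠ 1 := by
      intro h; have := congrArg Fin.val h; simp at this
      rw [Nat.mod_eq_of_lt (by omega)] at this; omega
    simp [this.symm, g1]

/-- `SL_n`, `n ≥ 3`, is transitive on non-zero vectors. -/
theorem sln_exists_single (v : Fin (m + 3) → F) (hv : v ≠ 0) :
    ∃ g : SpecialLinearGroup (Fin (m + 3)) F, g • (Pi.single 0 1 : Fin (m + 3) → F) = v := by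
  obtain ⟨i, hi⟩ := Function.ne_iff.mp hv
  obtain ⟨j, hj⟩ : ∃ j : Fin (m + 3), j ≠ i := by
    by_cases h : i = 0
    · exact ⟨1, by rw [h]; intro h'; have := congrArg Fin.val h'; simp at this⟩
    · exact ⟨0, fun h' => h h'.symm⟩
  have hind : LinearIndependent F ![v, (Pi.single j 1 : Fin (m + 3) → F)] := by
    rw [LinearIndependent.pair_iff]
    intro a b hab
    have h0 := congrFun hab i
    have h1 := congrFun hab j
    simp only [Pi.add_apply, Pi.smul_apply, smul_eq_mul, Pi.zero_apply, Pi.single_eq_same,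
      Pi.single_eq_of_ne hj.symm, mul_zero, add_zero, mul_one] at h0 h1
    have ha : a = 0 := by
      rcases mul_eq_zero.mp h0 with h | h
      · exact h
      · exact absurd h hi
    rw [ha, zero_mul, zero_add] at h1
    exact ⟨ha, h1⟩
  obtain ⟨g, hg, -⟩ := sln_exists_pair v _ hind
  exact ⟨g, hg⟩

end SLnLin

end Cfsg.Agent.Lib.Helper46
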