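import Cfsg.Agent.Lib.Helper46.SLn

set_option autoImplicit false

namespace Cfsg.Agent.Lib.Helper46

open Matrix Cfsg Cfsg.Agent.Lib.Helper4 MulAction
open scoped ComplexConjugate

section SLnGrp

variable {F : Type*} [Field F] {m : ℕ}

/-- The first standard basis vector. -/
abbrev slnE0 (F : Type*) [Field F] (m : ℕ) : Fin (m + 3) → F := Pi.single 0 1

theorem slnE0_ne_zero : slnE0 F m ≠ 0 := by
  intro h
  have := congrFun h 0
  simp at this

theorem sln_smul_apply (g : SpecialLinearGroup (Fin (m + 3)) F) (i : Fin (m + 3)) :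
    (g • slnE0 F m) i = (g : Matrix (Fin (m + 3)) (Fin (m + 3)) F) i 0 := by
  show ((g : Matrix (Fin (m + 3)) (Fin (m + 3)) F) *ᵥ Pi.single 0 1) i = _
  simp

theorem sln_smul_ne_zero (g : SpecialLinearGroup (Fin (m + 3)) F) (v : Fin (m + 3) → F)
    (hv : v ≠ 0) : g • v ≠ 0 := by
  intro h
  apply hv
  have : g⁻¹ • (g • v) = v := inv_smul_smul g v
  rw [← this, h, smul_zero]

/-- The stabiliser of the line through the first basis vector. -/
def slnP (F : Type*) [Field F] (m : ℕ) : Subgroup (SpecialLinearGroup (Fin (m + 3)) F) where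
  carrier := {g | ∃ c : F, g • slnE0 F m = c • slnE0 F m}
  one_mem' := ⟨1, by simp⟩
  mul_mem' := by
    rintro a b ⟨c, hc⟩ ⟨d, hd⟩
    refine ⟨d * c, ?_⟩
    rw [mul_smul, hd, smul_comm, hc, smul_smul]
  inv_mem' := by
    rintro a ⟨c, hc⟩
    have hc0 : c ≠ 0 := by
      rintro rfl
      rw [zero_smul] at hc
      exact sln_smul_ne_zero a _ slnE0_ne_zero hc
    refine ⟨c⁻¹, ?_⟩
    have h1 : a⁻¹ • (a • slnE0 F m) = slnE0 F m := inv_smul_smul a _
    rw [hc, smul_comm] at h1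
    rw [← h1, smul_smul, inv_mul_cancel₀ hc0, one_smul]
    rw [h1]

theorem mem_slnP_iff (g : SpecialLinearGroup (Fin (m + 3)) F) :
    g ∈ slnP F m ↔ ∃ c : F, g • slnE0 F m = c • slnE0 F m := Iff.rfl

theorem slnP_smul (g : SpecialLinearGroup (Fin (m + 3)) F) (hg : g ∈ slnP F m) :
    g • slnE0 F m = ((g : Matrix (Fin (m + 3)) (Fin (m + 3)) F) 0 0) • slnE0 F m := by
  obtain ⟨c, hc⟩ := hg
  have h0 := congrFun hc 0
  rw [sln_smul_apply] at h0
  simp only [Pi.smul_apply, Pi.single_eq_same, smul_eq_mul, mul_one] at h0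
  rw [h0, hc]

theorem slnP_entry_ne_zero (g : SpecialLinearGroup (Fin (m + 3)) F) (hg : g ∈ slnP F m) :
    (g : Matrix (Fin (m + 3)) (Fin (m + 3)) F) 0 0 ≠ 0 := by
  intro h
  have h1 := slnP_smul g hg
  rw [h, zero_smul] at h1
  exact sln_smul_ne_zero g _ slnE0_ne_zero h1

theorem slnP_entry_mul (a b : SpecialLinearGroup (Fin (m + 3)) F) (ha : a ∈ slnP F m)
    (hb : b ∈ slnP F m) :
    ((a * b : SpecialLinearGroup (Fin (m + 3)) F) : Matrix (Fin (m + 3)) (Fin (m + 3)) F) 0 0 =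
      (a : Matrix (Fin (m + 3)) (Fin (m + 3)) F) 0 0 *
        (b : Matrix (Fin (m + 3)) (Fin (m + 3)) F) 0 0 := by
  have h1 : (a * b) • slnE0 F m = a • (b • slnE0 F m) := mul_smul a b _
  rw [slnP_smul b hb, smul_comm, slnP_smul a ha, smul_smul] at h1
  have h0 := congrFun h1 0
  rw [sln_smul_apply] at h0
  simpa [mul_comm] using h0

/-- The stabiliser of the first basis vector consists of the elements of `slnP` with
top-left entry `1`. -/
theorem mem_stabilizer_slnE0_iff (g : SpecialLinearGroup (Fin (m + 3)) F) :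
    g ∈ stabilizer (SpecialLinearGroup (Fin (m + 3)) F) (slnE0 F m) ↔
      g ∈ slnP F m ∧ (g : Matrix (Fin (m + 3)) (Fin (m + 3)) F) 0 0 = 1 := by
  rw [mem_stabilizer_iff]
  constructor
  · intro h
    have hP : g ∈ slnP F m := ⟨1, by rw [h, one_smul]⟩
    refine ⟨hP, ?_⟩
    have h0 := congrFun h 0
    rw [sln_smul_apply] at h0
    simpa using h0
  · rintro ⟨hP, h1⟩
    rw [slnP_smul g hP, h1, one_smul]

/-- The linear character `p ↦ θ (p₀₀)` of `slnP`. -/
noncomputable def slnLam (θ : MulChar F ℂ) : slnP F m →* ℂ where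
  toFun p := θ ((p : SpecialLinearGroup (Fin (m + 3)) F) 0 0)
  map_one' := by simp
  map_mul' a b := by
    show θ (((a * b : slnP F m) : SpecialLinearGroup (Fin (m + 3)) F) 0 0) = _
    rw [Subgroup.coe_mul, slnP_entry_mul _ _ a.2 b.2, map_mul]

theorem slnLam_apply (θ : MulChar F ℂ) (p : slnP F m) :
    slnLam θ p = θ ((p : SpecialLinearGroup (Fin (m + 3)) F) 0 0) := rfl

/-- The diagonal element `diag(c, c⁻¹, 1, …, 1)`. -/
noncomputable def slnDiag (c : Fˣ) : SpecialLinearGroup (Fin (m + 3)) F :=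
  ⟨diagonal (fun i => (if i = 0 then (c : F) else 1) * (if i = 1 then ((c⁻¹ : Fˣ) : F) else 1)),
    by
      rw [det_diagonal, Finset.prod_mul_distrib,
        Finset.prod_ite_eq' Finset.univ (0 : Fin (m + 3)) (fun _ => (c : F)),
        Finset.prod_ite_eq' Finset.univ (1 : Fin (m + 3)) (fun _ => ((c⁻¹ : Fˣ) : F))]
      simp⟩

theorem slnDiag_smul (c : Fˣ) : (slnDiag c : SpecialLinearGroup (Fin (m + 3)) F) • slnE0 F m =
    (c : F) • slnE0 F m := by
  show (diagonal _ : Matrix (Fin (m + 3)) (Fin (m + 3)) F) *ᵥ Pi.single 0 1 = _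
  rw [diagonal_mulVec_single]
  have h10 : (0 : Fin (m + 3)) ≠ 1 := by
    intro h; have := congrArg Fin.val h; simp at this
  ext i
  by_cases hi : i = 0
  · subst hi; simp [h10]
  · simp [hi]

theorem slnDiag_mem (c : Fˣ) : (slnDiag c : SpecialLinearGroup (Fin (m + 3)) F) ∈ slnP F m :=
  ⟨c, slnDiag_smul c⟩

theorem slnDiag_entry (c : Fˣ) :
    ((slnDiag c : SpecialLinearGroup (Fin (m + 3)) F) : Matrix (Fin (m + 3)) (Fin (m + 3)) F) 0 0 =
      c := by
  have h := congrFun (slnDiag_smul (m := m) c) 0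
  rw [sln_smul_apply] at h
  simpa using h

end SLnGrp

end Cfsg.Agent.Lib.Helper46
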