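import Cfsg.Agent.Lib.Helper46.SLnb

set_option autoImplicit false

namespace Cfsg.Agent.Lib.Helper46

open Matrix Cfsg Cfsg.Agent.Lib.Helper4 MulAction
open scoped ComplexConjugate

section SLnPerm

open scoped Classical

variable {F : Type*} [Field F] [Fintype F] {m : ℕ}

theorem natCard_slnP : Nat.card (slnP F m) = (Fintype.card F - 1) *
    Nat.card (stabilizer (SpecialLinearGroup (Fin (m + 3)) F) (slnE0 F m)) := by
  rw [← Fintype.card_units, ← Nat.card_eq_fintype_card, ← Nat.card_prod]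
  symm
  apply Nat.card_congr
  refine Equiv.ofBijective
    (fun x : Fˣ × stabilizer (SpecialLinearGroup (Fin (m + 3)) F) (slnE0 F m) =>
      (⟨slnDiag x.1 * x.2.1, mul_mem (slnDiag_mem x.1)
        ((mem_stabilizer_slnE0_iff _).mp x.2.2).1⟩ : slnP F m)) ⟨?_, ?_⟩
  · rintro ⟨c, h⟩ ⟨c', h'⟩ heq
    have h1 : slnDiag c * h.1 = slnDiag c' * h'.1 := congrArg Subtype.val heq
    have e : (c : F) = c' := by
      have h2 := congrArg (fun g : SpecialLinearGroup (Fin (m + 3)) F =>
        (g : Matrix (Fin (m + 3)) (Fin (m + 3)) F) 0 0) h1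
      rw [slnP_entry_mul _ _ (slnDiag_mem c) ((mem_stabilizer_slnE0_iff _).mp h.2).1,
        slnP_entry_mul _ _ (slnDiag_mem c') ((mem_stabilizer_slnE0_iff _).mp h'.2).1,
        slnDiag_entry, slnDiag_entry, ((mem_stabilizer_slnE0_iff _).mp h.2).2,
        ((mem_stabilizer_slnE0_iff _).mp h'.2).2, mul_one, mul_one] at h2
      exact h2
    have ec : c = c' := Units.ext e
    subst ec
    have h3 : h.1 = h'.1 := mul_left_cancel h1
    exact Prod.ext rfl (Subtype.ext h3)
  · rintro ⟨p, hp⟩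
    have hh : (slnDiag (Units.mk0 _ (slnP_entry_ne_zero p hp)))⁻¹ * p ∈
        stabilizer (SpecialLinearGroup (Fin (m + 3)) F) (slnE0 F m) := by
      rw [mem_stabilizer_iff, mul_smul, slnP_smul p hp]
      have h4 : (slnDiag (Units.mk0 _ (slnP_entry_ne_zero p hp)) :
          SpecialLinearGroup (Fin (m + 3)) F) • slnE0 F m =
          ((p : Matrix (Fin (m + 3)) (Fin (m + 3)) F) 0 0) • slnE0 F m := slnDiag_smul _
      rw [← h4, inv_smul_smul]
    exact ⟨(Units.mk0 _ (slnP_entry_ne_zero p hp), ⟨_, hh⟩), Subtype.ext (by simp)⟩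

/-- The permutation character on non-zero vectors is induced from the vector stabiliser. -/
theorem sln_perm_eq (g : SpecialLinearGroup (Fin (m + 3)) F) :
    (Nat.card {v : Fin (m + 3) → F // v ≠ 0 ∧
      (g : Matrix (Fin (m + 3)) (Fin (m + 3)) F) *ᵥ v = v} : ℂ) =
    indFun (stabilizer (SpecialLinearGroup (Fin (m + 3)) F) (slnE0 F m)) (fun _ => 1) g := by
  rw [← Cfsg.Agent.Lib.Helper20.card_fixed_in_orbit]
  congr 1
  apply Nat.card_congr
  apply Equiv.subtypeEquivRight
  intro v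
  constructor
  · rintro ⟨hv, hg⟩
    obtain ⟨x, hx⟩ := sln_exists_single v hv
    exact ⟨⟨x, hx⟩, hg⟩
  · rintro ⟨⟨x, rfl⟩, hg⟩
    exact ⟨sln_smul_ne_zero x _ slnE0_ne_zero, hg⟩

variable [Fintype (MulChar F ℂ)]

theorem sln_sum_ind (g : SpecialLinearGroup (Fin (m + 3)) F) :
    ∑ θ : MulChar F ℂ, indFun (slnP F m) (slnLam θ) g =
      indFun (stabilizer (SpecialLinearGroup (Fin (m + 3)) F) (slnE0 F m)) (fun _ => 1) g := by
  unfold indFun
  rw [← Finset.mul_sum, Finset.sum_comm]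
  have key : ∀ y : SpecialLinearGroup (Fin (m + 3)) F,
      ∑ θ : MulChar F ℂ, extendByZero (slnP F m) (slnLam θ) y =
        ((Fintype.card F : ℂ) - 1) *
          extendByZero (stabilizer (SpecialLinearGroup (Fin (m + 3)) F) (slnE0 F m))
            (fun _ => 1) y := by
    intro y
    by_cases hy : y ∈ slnP F m
    · simp_rw [extendByZero_of_mem _ _ hy, slnLam_apply]
      rw [mulChar_sum_apply]
      by_cases h1 : (y : Matrix (Fin (m + 3)) (Fin (m + 3)) F) 0 0 = 1
      · rw [if_pos h1, extendByZero_of_mem _ _ ((mem_stabilizer_slnE0_iff y).mpr ⟨hy, h1⟩),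
          mul_one]
      · rw [if_neg h1, extendByZero_of_not_mem _ _
          (fun h => h1 ((mem_stabilizer_slnE0_iff y).mp h).2), mul_zero]
    · simp_rw [extendByZero_of_not_mem _ _ hy]
      rw [extendByZero_of_not_mem _ _ (fun h => hy ((mem_stabilizer_slnE0_iff y).mp h).1)]
      simp
  simp_rw [key]
  rw [← Finset.mul_sum, natCard_slnP, Nat.cast_mul, Nat.cast_sub Fintype.card_pos, Nat.cast_one]
  have hq : (Fintype.card F : ℂ) - 1 ≠ 0 := by
    have h2 : 1 < Fintype.card F := Fintype.one_lt_card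
    have h3 : ((Fintype.card F : ℕ) : ℂ) ≠ 1 := by
      intro h; have := Nat.cast_injective (R := ℂ) (by simpa using h : ((Fintype.card F : ℕ) : ℂ) = ((1 : ℕ) : ℂ)); omega
    exact sub_ne_zero.mpr h3
  have hH : (Nat.card (stabilizer (SpecialLinearGroup (Fin (m + 3)) F) (slnE0 F m)) : ℂ) ≠ 0 :=
    Nat.cast_ne_zero.mpr Nat.card_pos.ne'
  field_simp

end SLnPerm

end Cfsg.Agent.Lib.Helper46
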