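import Cfsg.Agent.Lib.Helper46.SLnc

set_option autoImplicit false

namespace Cfsg.Agent.Lib.Helper46

open Matrix Cfsg Cfsg.Agent.Lib.Helper4 MulAction
open scoped ComplexConjugate

section SLnNorm

open scoped Classical

variable {F : Type*} [Field F] [Fintype F] {m : ℕ}

/-- The vector stabiliser has at most `q + 1` orbits on all vectors. -/
theorem sln_card_orbits_le :
    Fintype.card (orbitRel.Quotient
      (stabilizer (SpecialLinearGroup (Fin (m + 3)) F) (slnE0 F m)) (Fin (m + 3) → F)) ≤
      Fintype.card F + 1 := by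
  rw [← Fintype.card_option]
  apply Fintype.card_le_of_surjective
    (fun c : Option F => match c with
      | none => (Quotient.mk'' (0 : Fin (m + 3) → F) : orbitRel.Quotient
          (stabilizer (SpecialLinearGroup (Fin (m + 3)) F) (slnE0 F m)) (Fin (m + 3) → F))
      | some c => if c = 0 then Quotient.mk'' (Pi.single 1 1 : Fin (m + 3) → F)
          else Quotient.mk'' (c • slnE0 F m))
  intro o
  induction o using Quotient.inductionOn' with
  | h v =>
    by_cases hv : v = 0
    · exact ⟨none, by rw [hv]⟩
    · by_cases hc : ∃ c : F, v = c • slnE0 F m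
      · obtain ⟨c, rfl⟩ := hc
        have hc0 : c ≠ 0 := by
          rintro rfl
          exact hv (zero_smul _ _)
        exact ⟨some c, by simp only [if_neg hc0]⟩
      · refine ⟨some 0, ?_⟩
        simp only [if_true]
        have hind : LinearIndependent F ![slnE0 F m, v] := by
          rw [LinearIndependent.pair_iff]
          intro a b hab
          by_cases hb : b = 0
          · rw [hb, zero_smul, add_zero] at hab
            rcases smul_eq_zero.mp hab with h | h
            · exact ⟨h, hb⟩
            · exact absurd h slnE0_ne_zero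
          · exfalso
            apply hc
            refine ⟨-(b⁻¹ * a), ?_⟩
            have h1 : b • v = -(a • slnE0 F m) := eq_neg_of_add_eq_zero_right hab
            calc v = b⁻¹ • (b • v) := by rw [smul_smul, inv_mul_cancel₀ hb, one_smul]
              _ = -(b⁻¹ * a) • slnE0 F m := by rw [h1, smul_neg, smul_smul, neg_smul]
        obtain ⟨g, hg0, hg1⟩ := sln_exists_pair _ _ hind
        apply Quotient.sound'
        show orbitRel _ _ _ _
        rw [orbitRel_apply]
        refine ⟨(⟨g, hg0⟩ : stabilizer (SpecialLinearGroup (Fin (m + 3)) F) (slnE0 F m))⁻¹, ?_⟩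
        show g⁻¹ • v = _
        rw [← hg1, inv_smul_smul]

theorem sln_card_fixedBy (h : SpecialLinearGroup (Fin (m + 3)) F) :
    Fintype.card {v : Fin (m + 3) → F // h • v = v} =
      Nat.card {v : Fin (m + 3) → F // v ≠ 0 ∧
        (h : Matrix (Fin (m + 3)) (Fin (m + 3)) F) *ᵥ v = v} + 1 := by
  rw [Nat.card_eq_fintype_card, Fintype.card_subtype, Fintype.card_subtype]
  have h0 : (0 : Fin (m + 3) → F) ∉ Finset.univ.filter
      (fun v : Fin (m + 3) → F => v ≠ 0 ∧
        (h : Matrix (Fin (m + 3)) (Fin (m + 3)) F) *ᵥ v = v) := by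
    simp
  rw [← Finset.card_insert_of_notMem h0]
  congr 1
  ext v
  simp only [Finset.mem_filter, Finset.mem_univ, true_and, Finset.mem_insert]
  constructor
  · intro hv
    by_cases hv0 : v = 0
    · exact Or.inl hv0
    · exact Or.inr ⟨hv0, hv⟩
  · rintro (rfl | ⟨-, hv⟩)
    · exact smul_zero h
    · exact hv


/-- The norm of the permutation character on non-zero vectors is at most `q`. -/
theorem sln_norm_le : ∃ k : ℕ,
    classInner (indFun (stabilizer (SpecialLinearGroup (Fin (m + 3)) F) (slnE0 F m))
        (fun _ => 1))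
      (indFun (stabilizer (SpecialLinearGroup (Fin (m + 3)) F) (slnE0 F m)) (fun _ => 1)) = k ∧
    k ≤ Fintype.card F := by
  set H := stabilizer (SpecialLinearGroup (Fin (m + 3)) F) (slnE0 F m) with hH
  have hchar : IsCharacter (SpecialLinearGroup (Fin (m + 3)) F) (indFun H (fun _ => 1)) :=
    isCharacter_indFun H _ (isCharacter_of_irr _ isIrrCharacter_one)
  obtain ⟨k, hk⟩ := classInner_char_char_nat _ _ hchar hchar
  refine ⟨k, hk, ?_⟩
  have hfrob := frobenius H (fun _ => 1) (indFun H (fun _ => 1)) (indFun_isClassFunction H _)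
  rw [hk] at hfrob
  have hB := MulAction.sum_card_fixedBy_eq_card_orbits_mul_card_group H (Fin (m + 3) → F)
  have hfix : ∀ h : H, Fintype.card (fixedBy (Fin (m + 3) → F) h) =
      Nat.card {v : Fin (m + 3) → F // v ≠ 0 ∧
        ((h : SpecialLinearGroup (Fin (m + 3)) F) : Matrix (Fin (m + 3)) (Fin (m + 3)) F) *ᵥ v
          = v} + 1 := by
    intro h
    rw [← sln_card_fixedBy (h : SpecialLinearGroup (Fin (m + 3)) F)]
    apply Fintype.card_congr
    exact Equiv.subtypeEquivRight (fun v => Iff.rfl)
  simp_rw [hfix] at hB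
  rw [Finset.sum_add_distrib, Finset.sum_const, Finset.card_univ, smul_eq_mul, mul_one] at hB
  have hle : Fintype.card (Quotient (orbitRel H (Fin (m + 3) → F))) * Fintype.card H ≤
      (Fintype.card F + 1) * Fintype.card H :=
    Nat.mul_le_mul_right (Fintype.card H) (sln_card_orbits_le (F := F) (m := m))
  have hsum : ∑ h : H, Nat.card {v : Fin (m + 3) → F // v ≠ 0 ∧
        ((h : SpecialLinearGroup (Fin (m + 3)) F) : Matrix (Fin (m + 3)) (Fin (m + 3)) F) *ᵥ v
          = v} = k * Fintype.card H := by
    apply Nat.cast_injective (R := ℂ)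
    unfold classInner at hfrob
    rw [Nat.card_eq_fintype_card] at hfrob
    have hH0 : (Fintype.card H : ℂ) ≠ 0 := Nat.cast_ne_zero.mpr Fintype.card_pos.ne'
    rw [Nat.cast_mul, hfrob, mul_comm, ← mul_assoc, mul_inv_cancel₀ hH0, one_mul, Nat.cast_sum]
    refine Finset.sum_congr rfl fun h _ => ?_
    rw [one_mul]
    show (_ : ℂ) = conj (indFun H (fun _ => 1) (h : SpecialLinearGroup (Fin (m + 3)) F))
    rw [← sln_perm_eq, Complex.conj_natCast]
  have hpos : 0 < Fintype.card H := Fintype.card_pos
  have h5 : k * Fintype.card H ≤ Fintype.card F * Fintype.card H := by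
    rw [← hsum]
    have : (Fintype.card F + 1) * Fintype.card H =
        Fintype.card F * Fintype.card H + Fintype.card H := by ring
    omega
  exact Nat.le_of_mul_le_mul_right h5 hpos

end SLnNorm

end Cfsg.Agent.Lib.Helper46
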