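import Cfsg.Agent.Lib.Helper46.SLnd

set_option autoImplicit false

namespace Cfsg.Agent.Lib.Helper46

open Matrix Cfsg Cfsg.Agent.Lib.Helper4 MulAction
open scoped ComplexConjugate

section Rigid

theorem nat_matrix_rigid {I : Type*} [Fintype I] [DecidableEq I] (i₀ : I) (c : I → I → ℕ) (q : ℕ)
    (hq : Fintype.card I + 1 = q) (hdiag : ∀ i, 1 ≤ c i i) (h0 : 2 ≤ c i₀ i₀)
    (htot : ∑ i, ∑ j, c i j ≤ q) :
    c i₀ i₀ = 2 ∧ (∀ i, i ≠ i₀ → c i i = 1) ∧ (∀ i j, i ≠ j → c i j = 0) := by
  set base : I → I → ℕ := fun i j => if i = j then (if i = i₀ then 2 else 1) else 0 with hbase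
  have hle : ∀ i j, base i j ≤ c i j := by
    intro i j
    simp only [hbase]
    split_ifs with h1 h2
    · rw [← h1, h2]; exact h0
    · rw [← h1]; exact hdiag i
    · exact Nat.zero_le _
  have hbsum : ∑ i, ∑ j, base i j = q := by
    have h1 : ∀ i, ∑ j, base i j = 1 + (if i = i₀ then 1 else 0) := by
      intro i
      simp only [hbase]
      rw [Finset.sum_ite_eq]
      simp only [Finset.mem_univ, if_true]
      split_ifs <;> rfl
    simp_rw [h1]
    rw [Finset.sum_add_distrib, Finset.sum_ite_eq']
    simp only [Finset.sum_const, Finset.card_univ, smul_eq_mul, mul_one, Finset.mem_univ, if_true]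
    exact hq
  have heq : ∀ i j, c i j = base i j := by
    by_contra hne
    simp only [not_forall] at hne
    obtain ⟨i, j, hij⟩ := hne
    have hlt : base i j < c i j := lt_of_le_of_ne (hle i j) (Ne.symm hij)
    have h1 : ∑ j, base i j < ∑ j, c i j :=
      Finset.sum_lt_sum (fun j _ => hle i j) ⟨j, Finset.mem_univ j, hlt⟩
    have h2 : ∑ i, ∑ j, base i j < ∑ i, ∑ j, c i j :=
      Finset.sum_lt_sum (fun i _ => Finset.sum_le_sum (fun j _ => hle i j))
        ⟨i, Finset.mem_univ i, h1⟩
    omega
  refine ⟨?_, ?_, ?_⟩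
  · rw [heq]; simp [hbase]
  · intro i hi; rw [heq]; simp [hbase, hi]
  · intro i j hij; rw [heq]; simp [hbase, hij]

end Rigid

section InnerSum

variable {G : Type*} [Group G] [Fintype G]

theorem classInner_zero_left (h : G → ℂ) : classInner (0 : G → ℂ) h = 0 := by
  unfold classInner; simp

theorem classInner_zero_right (h : G → ℂ) : classInner h (0 : G → ℂ) = 0 := by
  unfold classInner; simp

theorem classInner_finset_sum_left {ι : Type*} (s : Finset ι) (f : ι → G → ℂ) (h : G → ℂ) :
    classInner (∑ i ∈ s, f i) h = ∑ i ∈ s, classInner (f i) h := by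
  classical
  induction s using Finset.induction_on with
  | empty => simp [classInner_zero_left]
  | insert a s ha ih => rw [Finset.sum_insert ha, Finset.sum_insert ha, classInner_add_left, ih]

theorem classInner_finset_sum_right {ι : Type*} (s : Finset ι) (f : ι → G → ℂ) (h : G → ℂ) :
    classInner h (∑ i ∈ s, f i) = ∑ i ∈ s, classInner h (f i) := by
  classical
  induction s using Finset.induction_on with
  | empty => simp [classInner_zero_right]
  | insert a s ha ih => rw [Finset.sum_insert ha, Finset.sum_insert ha, classInner_add_right, ih]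

/-- Removing an irreducible constituent from a character leaves a character. -/
theorem isCharacter_sub_irr (φ : G → ℂ) (hφ : IsCharacter G φ) (χ₀ : IrrCharacter G)
    (h : classInner φ (χ₀ : G → ℂ) ≠ 0) : IsCharacter G (φ - (χ₀ : G → ℂ)) := by
  classical
  have := irr_finite (G := G)
  let _ : Fintype (IrrCharacter G) := Fintype.ofFinite _
  obtain ⟨mm, hm⟩ := exists_decomp_of_isCharacter φ hφ
  have h1 : classInner φ (χ₀ : G → ℂ) = mm χ₀ := by
    rw [hm]; exact classInner_sum_irr _ χ₀
  have hpos : mm χ₀ ≠ 0 := by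
    intro h0; apply h; rw [h1, h0]; simp
  have key : φ - (χ₀ : G → ℂ) = ∑ χ : IrrCharacter G,
      ((if χ = χ₀ then mm χ - 1 else mm χ : ℕ) : ℂ) • (χ : G → ℂ) := by
    rw [sub_eq_iff_eq_add, hm]
    have h2 : (χ₀ : G → ℂ) = ∑ χ : IrrCharacter G,
        (if χ = χ₀ then (1 : ℂ) else 0) • (χ : G → ℂ) := by
      rw [Finset.sum_eq_single χ₀]
      · simp
      · intro b _ hb; simp [hb]
      · intro hx; exact absurd (Finset.mem_univ _) hx
    conv_rhs => rw [h2]
    rw [← Finset.sum_add_distrib]
    refine Finset.sum_congr rfl fun χ _ => ?_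
    by_cases hχ : χ = χ₀
    · subst hχ
      rw [if_pos rfl, if_pos rfl, ← add_smul]
      congr 1
      have : mm χ - 1 + 1 = mm χ := by omega
      exact_mod_cast this.symm
    · rw [if_neg hχ, if_neg hχ, zero_smul, add_zero]
  rw [key]
  exact isCharacter_sum _ _ fun χ _ => isCharacter_nsmul _ _ (isCharacter_of_irr _ χ.2)

end InnerSum

end Cfsg.Agent.Lib.Helper46
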