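import Mathlib
import Cfsg.Agent.Lib.Helper93.Sp4Defs
import Cfsg.Agent.Lib.Helper93.PresCore

/-!
# S2293 piece SP4-MATA (helper46, for helper93): `mat_a_basic`
-/

set_option autoImplicit false

namespace Cfsg.Agent.Lib.Helper93.Sp4

open Polynomial Matrix

variable {F : Type*} [Field F]

theorem h46_sX_add (a b : F) : sX (a + b) = sX a * sX b := by
  apply Subtype.ext
  show (sX (a + b)).1 = (sX a).1 * (sX b).1
  rw [sX_val, sX_val, sX_val, Matrix.fromBlocks_multiply]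
  congr 1 <;> ext i j <;> fin_cases i <;> fin_cases j <;>
    simp [Matrix.mul_apply, Fin.sum_univ_two, add_comm]

theorem h46_sHb_conj (ζ : F) (hζ0 : ζ ≠ 0) (a : F) :
    sHb ζ hζ0 * sX a * (sHb ζ hζ0)⁻¹ = sX (ζ * a) := by
  rw [mul_inv_eq_iff_eq_mul]
  apply Subtype.ext
  show (sHb ζ hζ0).1 * (sX a).1 = (sX (ζ * a)).1 * (sHb ζ hζ0).1
  rw [sHb_val, sX_val, sX_val, Matrix.fromBlocks_multiply, Matrix.fromBlocks_multiply]
  congr 1 <;> ext i j <;> fin_cases i <;> fin_cases j <;>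
    (try simp) <;> (try field_simp)

/-- MATA -/
theorem mat_a_basic (ζ : F) (hζ0 : ζ ≠ 0) :
    (∀ a b : F, sX (a + b) = sX a * sX b) ∧
    (∀ a : F, sHb ζ hζ0 * sX a * (sHb ζ hζ0)⁻¹ = sX (ζ * a)) ∧
    (∀ i : ℕ, Pres.aC (sX (1 : F)) (sHb ζ hζ0)⁻¹ i = sX (ζ ^ i)) := by
  refine ⟨h46_sX_add, h46_sHb_conj ζ hζ0, ?_⟩
  intro i
  induction i with
  | zero => rw [Pres.aC_zero, pow_zero]
  | succ i ih => rw [Pres.aC_succ, ih, inv_inv, h46_sHb_conj, pow_succ, mul_comm]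

end Cfsg.Agent.Lib.Helper93.Sp4
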