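import Mathlib
import Cfsg.Agent.Lib.Helper93.Sp4Defs
import Cfsg.Agent.Lib.Helper93.PresCore

/-!
# S2293 piece SP4-MATGA (helper46, for helper93): `mat_relsGapA`
-/

set_option autoImplicit false

namespace Cfsg.Agent.Lib.Helper93.Sp4

open Polynomial Matrix

variable {F : Type*} [Field F]

/-- MATGA -/
theorem mat_relsGapA (ζ : F) (hζ0 : ζ ≠ 0) (k : ℕ) (hk : ζ ^ k = 1 + ζ)
    (hadd : ∀ a b : F, sX (a + b) = sX a * sX b)
    (haC : ∀ i : ℕ, Pres.aC (sX (1 : F)) (sHb ζ hζ0)⁻¹ i = sX (ζ ^ i)) :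
    ∀ r ∈ relsGapA k (sX (1 : F)) (sHb ζ hζ0), r = 1 := by
  have hcomm : ∀ a b : F, sX a * sX b = sX b * sX a := by
    intro a b
    rw [← hadd, ← hadd, add_comm]
  intro r hr
  unfold relsGapA at hr
  rw [haC 0, haC 1, haC k, pow_zero, pow_one, hk] at hr
  simp only [List.mem_cons, List.not_mem_nil, or_false] at hr
  rcases hr with rfl | rfl
  · rw [hcomm 1 ζ, mul_assoc (sX ζ), mul_inv_cancel, mul_one, mul_inv_cancel]
  · rw [← hadd, inv_mul_cancel]

end Cfsg.Agent.Lib.Helper93.Sp4
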